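import Mathlib
import Cfsg.Agent.Lib.Helper3.CdPa
import Cfsg.Agent.Lib.Helper3.Frob

/-!
Groups with character degrees `1` and `p`: the case of a `p`-group, first part.

* `exists_center_char`: a nonabelian `p`-group with degrees `1` and `p` has an irreducible
  character `χ` of degree `p` vanishing off its centre `Z`, with `G ⧸ Z` abelian of order `p ^ 2`.
* `vanish_off`: the nonlinear irreducible characters of a proper normal subgroup containing `Z`
  vanish off `Z`.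
* `sup_zpowers_ne_top`: `Z ⊔ ⟨x⟩` is proper.
* `abelian_center`: `Z` is abelian.
-/

set_option autoImplicit false

namespace Cfsg.Agent.Lib.Helper3.CdPb

open Cfsg Cfsg.Agent.Lib.Helper80.Integrality Cfsg.Agent.Lib.Helper80.Restrict
open Cfsg.Agent.Lib.CT.Wedderburn Cfsg.Agent.Lib.CT.Orth
open Cfsg.Agent.Lib.Helper3 Cfsg.Agent.Lib.Helper3.CdPa
open scoped ComplexConjugate

universe u
variable {G : Type u} [Group G]

/-- The squared norm of a character value on the centre of the character. -/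
theorem normSq_of_norm_eq {χ : G → ℂ} (hχ : IsCharacter G χ) (g : G) (h : ‖χ g‖ = (χ 1).re) :
    Complex.normSq (χ g) = (charDegree χ : ℝ) ^ 2 := by
  rw [Complex.normSq_eq_norm_sq, h, apply_one_eq_charDegree hχ]
  simp

/-- The kernel of a nonlinear irreducible character is proper. -/
theorem exists_not_ker [Finite G] (χ : IrrCharacter G) (hχ : charDegree χ.1 ≠ 1) :
    ∃ g, χ.1 g ≠ χ.1 1 := by
  classical
  by_contra hall
  push Not at hall
  haveI := Fintype.ofFinite G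
  have h1 := Cfsg.Agent.Lib.Helper80.Core.sum_normSq_eq_card χ
  have hval : ∀ g : G, Complex.normSq (χ.1 g) = (charDegree χ.1 : ℝ) * (charDegree χ.1 : ℝ) := by
    intro g
    rw [hall g, apply_one_eq_charDegree (isCharacter_of_irr χ.2), Complex.normSq_natCast]
  rw [Finset.sum_congr rfl (fun g _ => hval g), Finset.sum_const, Finset.card_univ,
    nsmul_eq_mul, ← Nat.card_eq_fintype_card] at h1
  have h2 : Nat.card G * (charDegree χ.1 * charDegree χ.1) = Nat.card G := by exact_mod_cast h1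
  have hpos : 0 < Nat.card G := Nat.card_pos
  have hd := charDegree_pos χ
  have h3 : 2 ≤ charDegree χ.1 := by omega
  have h4 : 2 * 2 ≤ charDegree χ.1 * charDegree χ.1 := Nat.mul_le_mul h3 h3
  nlinarith

/-- A nonabelian `p`-group with degrees `1` and `p` has an irreducible character of degree `p`
vanishing off its centre `Z`, with `G ⧸ Z` abelian of order `p ^ 2`. -/
theorem exists_center_char [Finite G] (p : ℕ) (hp : p.Prime) (hG : IsPGroup p G)
    (hcd : ∀ χ : IrrCharacter G, charDegree χ.1 = 1 ∨ charDegree χ.1 = p)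
    (hnab : ∃ a b : G, a * b ≠ b * a) :
    ∃ (χ : IrrCharacter G) (Z : Subgroup G), Z.Normal ∧ charDegree χ.1 = p ∧
      (∀ g, g ∈ Z ↔ ‖χ.1 g‖ = (χ.1 1).re) ∧ (∀ g, g ∉ Z → χ.1 g = 0) ∧
      (∀ g h : G, g * h * g⁻¹ * h⁻¹ ∈ Z) ∧ Z.index = p ^ 2 := by
  classical
  haveI := Fintype.ofFinite G
  haveI := finite_irrCharacter G
  have hnl : ∃ χ : IrrCharacter G, charDegree χ.1 ≠ 1 := by
    by_contra hall
    push Not at hall
    obtain ⟨a, b, hab⟩ := hnab
    exact hab (TDBasic.comm_of_forall_degree_one hall a b)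
  obtain ⟨χ₀, hχ₀⟩ := hnl
  haveI : Nonempty {χ : IrrCharacter G // charDegree χ.1 ≠ 1} := ⟨⟨χ₀, hχ₀⟩⟩
  obtain ⟨⟨χ, hχnl⟩, hmax⟩ := Finite.exists_max
    (fun χ : {χ : IrrCharacter G // charDegree χ.1 ≠ 1} =>
      Set.ncard {g : G | χ.1.1 g = χ.1.1 1})
  have hχp : charDegree χ.1 = p := (hcd χ).resolve_left hχnl
  have hχc := isCharacter_of_irr χ.2
  obtain ⟨Z, hZn, hZ⟩ := Cfsg.Agent.Lib.CT.Kernel.exists_normal_center hχc
  obtain ⟨K, hKn, hK⟩ := Cfsg.Agent.Lib.CT.Kernel.exists_normal_ker hχc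
  haveI := hZn
  haveI := hKn
  -- the kernel is properly contained in the centre
  have hKZ : ∃ z, z ∈ Z ∧ z ∉ K := by
    obtain ⟨g₀, hg₀⟩ := exists_not_ker χ hχnl
    haveI : Nontrivial (G ⧸ K) := by
      refine ⟨⟨(g₀ : G ⧸ K), 1, ?_⟩⟩
      intro h
      rw [QuotientGroup.eq_one_iff] at h
      exact hg₀ ((hK g₀).1 h)
    have hPQ : IsPGroup p (G ⧸ K) := hG.to_quotient K
    haveI : Fact p.Prime := ⟨hp⟩
    haveI := hPQ.center_nontrivial
    obtain ⟨⟨zb, hzb⟩, hzne⟩ := exists_ne (1 : Subgroup.center (G ⧸ K))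
    obtain ⟨z, rfl⟩ := QuotientGroup.mk_surjective zb
    refine ⟨z, ?_, ?_⟩
    · rw [hZ]
      apply norm_eq_of_commutators χ.2
      intro x
      rw [← hK]
      apply (QuotientGroup.eq_one_iff _).1
      have h1 := Subgroup.mem_center_iff.1 hzb (x : G ⧸ K)
      rw [QuotientGroup.mk_mul, QuotientGroup.mk_mul, QuotientGroup.mk_mul, QuotientGroup.mk_inv,
        QuotientGroup.mk_inv, ← h1]
      group
    · intro hzK
      apply hzne
      apply Subtype.ext
      exact (QuotientGroup.eq_one_iff z).2 hzK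
  -- the quotient by the centre is abelian
  have hcomm : ∀ g h : G, g * h * g⁻¹ * h⁻¹ ∈ Z := by
    by_contra hne
    push Not at hne
    obtain ⟨g, h, hgh⟩ := hne
    have hnlq : ∃ ψ : IrrCharacter (G ⧸ Z), charDegree ψ.1 ≠ 1 := by
      by_contra hall
      push Not at hall
      apply hgh
      apply (QuotientGroup.eq_one_iff _).1
      have h1 := TDBasic.comm_of_forall_degree_one hall (g : G ⧸ Z) (h : G ⧸ Z)
      rw [QuotientGroup.mk_mul, QuotientGroup.mk_mul, QuotientGroup.mk_mul, QuotientGroup.mk_inv,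
        QuotientGroup.mk_inv, h1]
      group
    obtain ⟨ψb, hψb⟩ := hnlq
    have hψnl : charDegree (TDBasic.infl Z ψb).1 ≠ 1 := by
      rw [TDBasic.charDegree_infl]
      exact hψb
    have hle := hmax ⟨TDBasic.infl Z ψb, hψnl⟩
    obtain ⟨z, hzZ, hzK⟩ := hKZ
    have hinfl : ∀ y ∈ Z, (TDBasic.infl Z ψb).1 y = (TDBasic.infl Z ψb).1 1 := by
      intro y hy
      rw [TDBasic.infl_apply, TDBasic.infl_apply, (QuotientGroup.eq_one_iff y).2 hy]
      rfl
    have hlt : Set.ncard {g : G | χ.1 g = χ.1 1} <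
        Set.ncard {g : G | (TDBasic.infl Z ψb).1 g = (TDBasic.infl Z ψb).1 1} := by
      apply Set.ncard_lt_ncard _ (Set.toFinite _)
      refine ⟨fun y hy => ?_, fun hsub => ?_⟩
      · exact hinfl y ((hZ y).2 (Cfsg.Agent.Lib.CT.Kernel.norm_eq_of_eq hχc hy))
      · have h1 : z ∈ {g : G | χ.1 g = χ.1 1} := hsub (hinfl z hzZ)
        exact hzK ((hK z).2 h1)
    exact absurd hle (not_le.2 hlt)
  -- vanishing off the centre
  have hvan : ∀ g, g ∉ Z → χ.1 g = 0 := by
    intro g hg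
    have hex : ∃ h : G, χ.1 (g * h * g⁻¹ * h⁻¹) ≠ χ.1 1 := by
      by_contra hall
      push Not at hall
      exact hg ((hZ g).2 (norm_eq_of_commutators χ.2 g hall))
    obtain ⟨h, hh⟩ := hex
    have hcZ := (hZ _).1 (hcomm g h)
    obtain ⟨ω, hω1, -, hω3⟩ := Cfsg.Agent.Lib.CT.Kernel.exists_scalar_of_norm_eq hχc hcZ
    have hω : ω ≠ 1 := by
      rintro rfl
      rw [one_mul] at hω3
      exact hh hω3
    have h1 := hω1 (h * g * h⁻¹)
    have h2 : g * h * g⁻¹ * h⁻¹ * (h * g * h⁻¹) = g := by group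
    rw [h2, irr_isClassFunction χ g h] at h1
    have h3 : (1 - ω) * χ.1 g = 0 := by linear_combination h1
    rcases mul_eq_zero.1 h3 with h4 | h4
    · exact absurd (sub_eq_zero.1 h4).symm hω
    · exact h4
  refine ⟨χ, Z, hZn, hχp, hZ, hvan, hcomm, ?_⟩
  haveI := Fintype.ofFinite Z
  have h1 := Cfsg.Agent.Lib.Helper80.Core.sum_normSq_eq_card χ
  have h2 := sum_subgroup_eq Z (fun g => Complex.normSq (χ.1 g))
    (fun g hg => by rw [hvan g hg]; simp)
  have hval : ∀ m : Z, Complex.normSq (χ.1 m) = (p : ℝ) ^ 2 := by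
    intro m
    rw [normSq_of_norm_eq hχc m ((hZ m).1 m.2), hχp]
  have h3 : ∑ m : Z, Complex.normSq (χ.1 m) = (Nat.card Z : ℝ) * (p : ℝ) ^ 2 := by
    rw [Finset.sum_congr rfl (fun m _ => hval m), Finset.sum_const, Finset.card_univ,
      nsmul_eq_mul, ← Nat.card_eq_fintype_card]
  have h4 : (Nat.card Z : ℝ) * (p : ℝ) ^ 2 = Nat.card G := by rw [← h3, h2, h1]
  have h5 : Nat.card Z * p ^ 2 = Nat.card G := by exact_mod_cast h4
  have h6 := Z.card_mul_index
  have hpos : 0 < Nat.card Z := Nat.card_pos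
  exact Nat.eq_of_mul_eq_mul_left hpos (h6.trans h5.symm)

/-- The nonlinear irreducible characters of a proper normal subgroup containing the centre `Z`
of a fully ramified character of degree `p` vanish off `Z`. -/
theorem vanish_off [Finite G] (p : ℕ) (hp : p.Prime)
    (hcd : ∀ χ : IrrCharacter G, charDegree χ.1 = 1 ∨ charDegree χ.1 = p)
    (χ : IrrCharacter G) (hχp : charDegree χ.1 = p) (Z : Subgroup G)
    (hZ : ∀ g, g ∈ Z ↔ ‖χ.1 g‖ = (χ.1 1).re) (hvan : ∀ g, g ∉ Z → χ.1 g = 0)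
    (M : Subgroup G) [hM : M.Normal] (hZM : Z ≤ M) (hMtop : M ≠ ⊤)
    (ψ : IrrCharacter M) (hψ : charDegree ψ.1 ≠ 1) (m : M) (hm : (m : G) ∉ Z) : ψ.1 m = 0 := by
  classical
  by_contra hne
  haveI := Fintype.ofFinite G
  haveI := Fintype.ofFinite M
  haveI := finite_irrCharacter M
  haveI := Fintype.ofFinite (IrrCharacter M)
  have hχc := isCharacter_of_irr χ.2
  have hres : IsCharacter M (fun m : M => χ.1 m) :=
    Cfsg.Agent.Lib.CT.Ops.isCharacter_restrict M hχc
  have hvanM : ∀ g, g ∉ M → χ.1 g = 0 := fun g hg => hvan g (fun h => hg (hZM h))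
  have hnirr := not_irr_restrict M hMtop χ hvanM
  obtain ⟨mm, hmm1, hmm2, hmm3, -⟩ := exists_mult hres
  have hdeg : charDegree (fun m : M => χ.1 m) = charDegree χ.1 := rfl
  have hexc : ∃ lam : IrrCharacter M, mm lam ≠ 0 := by
    by_contra hall
    push Not at hall
    have h0 : charDegree (fun m : M => χ.1 m) = 0 := by
      rw [hmm3]
      exact Finset.sum_eq_zero (fun ν _ => by rw [hall ν, zero_mul])
    rw [hdeg, hχp] at h0
    exact hp.ne_zero h0
  obtain ⟨lam, hlam⟩ := hexc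
  have hlamc : classInner (fun m : M => χ.1 m) lam.1 ≠ 0 := by
    rw [hmm1 lam]
    exact_mod_cast hlam
  have hlin : ∀ ν : IrrCharacter M, classInner (fun m : M => χ.1 m) ν.1 ≠ 0 →
      charDegree ν.1 = 1 := by
    intro ν hν
    have hdvd := (TDBasic.deg_of_constituent M ν χ hν).1
    rw [hχp] at hdvd
    rcases (Nat.dvd_prime hp).1 hdvd with h1 | h1
    · exact h1
    · exfalso
      have h2 := eq_of_constituent_of_degree_le hres ν hν (by rw [hdeg, hχp, h1])
      exact hnirr (h2 ▸ ν.2)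
  have hlamch := isCharacter_of_irr lam.2
  have hlam1 : lam.1 1 = 1 := by
    rw [apply_one_eq_charDegree hlamch, hlin lam hlamc]
    simp
  have hψl : IsIrrCharacter M (ψ.1 * lam.1) :=
    Cfsg.Agent.Lib.CT.LinChar.isIrrCharacter_mul_linear ψ.2 hlamch hlam1
  have hψlnl : charDegree (ψ.1 * lam.1) ≠ 1 := by
    intro h
    apply hψ
    apply TDFrob.charDegree_of_apply_one
    have h1 := apply_one_eq_charDegree (isCharacter_of_irr hψl)
    rw [h, Pi.mul_apply, hlam1, mul_one] at h1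
    simpa using h1
  obtain ⟨θ₁, hθ₁⟩ := exists_extension p hp hcd M ψ hψ
  obtain ⟨θ₂, hθ₂⟩ := exists_extension p hp hcd M ⟨ψ.1 * lam.1, hψl⟩ hψlnl
  have hinv : ∀ g : G, lam.1 ⟨g * m * g⁻¹, hM.conj_mem m m.2 g⟩ = lam.1 m := by
    intro g
    have h1 : ψ.1 ⟨g * m * g⁻¹, hM.conj_mem m m.2 g⟩ = ψ.1 m := by
      rw [← hθ₁, ← hθ₁]
      exact irr_isClassFunction θ₁ m g
    have h2 : (ψ.1 * lam.1) ⟨g * m * g⁻¹, hM.conj_mem m m.2 g⟩ = (ψ.1 * lam.1) m := by
      have h3 := hθ₂ ⟨g * m * g⁻¹, hM.conj_mem m m.2 g⟩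
      have h4 := hθ₂ m
      exact h3.symm.trans ((irr_isClassFunction θ₂ m g).trans h4)
    rw [Pi.mul_apply, Pi.mul_apply, h1] at h2
    exact mul_left_cancel₀ hne h2
  have hχm : χ.1 m = lam.1 m * χ.1 1 := by
    have e1 : χ.1 (m : G) = ∑ ν : IrrCharacter M, (mm ν : ℂ) * ν.1 m := hmm2 m
    have e2 : χ.1 (1 : G) = ∑ ν : IrrCharacter M, (mm ν : ℂ) * ν.1 1 := hmm2 1
    rw [e1, e2, Finset.mul_sum]
    refine Finset.sum_congr rfl fun ν _ => ?_
    by_cases h0 : mm ν = 0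
    · rw [h0]
      simp
    · have hν : classInner (fun m : M => χ.1 m) ν.1 ≠ 0 := by
        rw [hmm1 ν]
        exact_mod_cast h0
      obtain ⟨g, hg⟩ := Cfsg.Agent.Lib.CT.Clifford.exists_conj_of_constituent M hM χ.2 lam.2 ν.2
        hlamc hν
      have h1 : ν.1 m = lam.1 m := by
        rw [hg, Cfsg.Agent.Lib.CT.Clifford.conjFun_apply]
        exact hinv g
      have h2 : ν.1 1 = 1 := by
        rw [apply_one_eq_charDegree (isCharacter_of_irr ν.2), hlin ν hν]
        simp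
      rw [h1, h2]
      ring
  apply hm
  rw [hZ, hχm, norm_mul, Cfsg.Agent.Lib.CT.LinChar.linear_norm hlamch hlam1 m, one_mul,
    apply_one_eq_charDegree hχc]
  simp

/-- In the situation of `exists_center_char`, the subgroup generated by `Z` and an element is
proper. -/
theorem sup_zpowers_ne_top [Finite G] (χ : IrrCharacter G) (Z : Subgroup G) [hZn : Z.Normal]
    (hZ : ∀ g, g ∈ Z ↔ ‖χ.1 g‖ = (χ.1 1).re) (x : G) (hx : x ∉ Z) :
    Z ⊔ Subgroup.zpowers x ≠ ⊤ := by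
  intro htop
  apply hx
  rw [hZ]
  have hχc := isCharacter_of_irr χ.2
  obtain ⟨K, hKn, hK⟩ := Cfsg.Agent.Lib.CT.Kernel.exists_normal_ker hχc
  apply norm_eq_of_commutators χ.2
  intro g
  obtain ⟨z, hz, h, hh, rfl⟩ := Cfsg.Agent.Lib.Helper3.Frob.exists_mul htop g
  obtain ⟨k, rfl⟩ := Subgroup.mem_zpowers_iff.1 hh
  have h1 : x * (z * x ^ k) * x⁻¹ * (z * x ^ k)⁻¹ = (z * x * z⁻¹ * x⁻¹)⁻¹ := by group
  rw [h1, ← hK]
  apply K.inv_mem
  rw [hK]
  exact Cfsg.Agent.Lib.CT.Kernel.commutator_of_norm_eq hχc ((hZ z).1 hz) x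

/-- A subgroup containing a subgroup that contains all commutators is normal. -/
theorem normal_of_comm_le (Z M : Subgroup G) (hcomm : ∀ g h : G, g * h * g⁻¹ * h⁻¹ ∈ Z)
    (hZM : Z ≤ M) : M.Normal := by
  constructor
  intro n hn g
  have h1 : g * n * g⁻¹ = (g * n * g⁻¹ * n⁻¹) * n := by group
  rw [h1]
  exact M.mul_mem (hZM (hcomm g n)) hn

/-- In the situation of `exists_center_char`, the centre `Z` of the character is abelian. -/
theorem abelian_center [Finite G] (p : ℕ) (hp : p.Prime)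
    (hcd : ∀ χ : IrrCharacter G, charDegree χ.1 = 1 ∨ charDegree χ.1 = p)
    (χ : IrrCharacter G) (hχp : charDegree χ.1 = p) (Z : Subgroup G) [hZn : Z.Normal]
    (hZ : ∀ g, g ∈ Z ↔ ‖χ.1 g‖ = (χ.1 1).re) (hvan : ∀ g, g ∉ Z → χ.1 g = 0)
    (hcomm : ∀ g h : G, g * h * g⁻¹ * h⁻¹ ∈ Z) (hZtop : Z ≠ ⊤) :
    ∀ a ∈ Z, ∀ b ∈ Z, a * b = b * a := by
  classical
  intro a ha b hb
  obtain ⟨x, hx⟩ : ∃ x, x ∉ Z := by
    by_contra hall
    push Not at hall
    exact hZtop (eq_top_iff.2 (fun g _ => hall g))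
  obtain ⟨M, hMdef⟩ : ∃ M : Subgroup G, M = Z ⊔ Subgroup.zpowers x := ⟨_, rfl⟩
  have hZM : Z ≤ M := hMdef ▸ le_sup_left
  have hxM : x ∈ M := by
    rw [hMdef]
    exact (le_sup_right : Subgroup.zpowers x ≤ Z ⊔ Subgroup.zpowers x) (Subgroup.mem_zpowers x)
  haveI hMn : M.Normal := normal_of_comm_le Z M hcomm hZM
  have hMtop : M ≠ ⊤ := hMdef ▸ sup_zpowers_ne_top χ Z hZ x hx
  obtain ⟨c, hc⟩ : ∃ c : M, c = (⟨a, hZM ha⟩ : M) * ⟨b, hZM hb⟩ * (⟨a, hZM ha⟩ : M)⁻¹ *
      (⟨b, hZM hb⟩ : M)⁻¹ := ⟨_, rfl⟩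
  have hall : ∀ ψ : IrrCharacter M, ψ.1 c = ψ.1 1 := by
    intro ψ
    by_cases hψ : charDegree ψ.1 = 1
    · rw [hc]
      exact TDTak.apply_eq_one_of_mem_commutator ψ hψ (TDUniq.conj_mul_inv_mem_commutator _ _)
    · have hψp : charDegree ψ.1 = p := (degree_of_normal p hp hcd M ψ).resolve_left hψ
      have hN : Z.subgroupOf M ≠ ⊤ := by
        intro h
        have h1 : (⟨x, hxM⟩ : M) ∈ Z.subgroupOf M := by
          rw [h]
          exact Subgroup.mem_top _
        exact hx (Subgroup.mem_subgroupOf.1 h1)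
      rw [hc]
      exact comm_apply_of_vanish p hp (Z.subgroupOf M) hN ψ hψp
        (fun m hm => vanish_off p hp hcd χ hχp Z hZ hvan M hZM hMtop ψ hψ m
          (fun h => hm (Subgroup.mem_subgroupOf.2 h)))
        ⟨a, hZM ha⟩ ⟨b, hZM hb⟩ (Subgroup.mem_subgroupOf.2 ha) (Subgroup.mem_subgroupOf.2 hb)
  have hc1 : c = 1 := isConj_one_left.1 (isConj_of_irr_eq c 1 hall)
  have h5 := congrArg Subtype.val hc1
  rw [hc] at h5
  simp only [Subgroup.coe_mul, Subgroup.coe_inv, Subgroup.coe_one] at h5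
  calc a * b = (a * b * a⁻¹ * b⁻¹) * (b * a) := by group
    _ = b * a := by rw [h5, one_mul]

end Cfsg.Agent.Lib.Helper3.CdPb
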