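import Mathlib
import Cfsg.Agent.Lib.Helper3.CdPb
import Cfsg.Agent.Lib.Helper3.TDExt
import Cfsg.Agent.Lib.Helper25.CliffordCorr2
import Cfsg.Agent.Lib.Helper14.BSChar

/-!
Groups with character degrees `1` and `p`: counting in the dual of an abelian normal subgroup.

* `card_fixed_hom`: an endomorphism of a finite abelian group fixes as many elements as linear
  characters.
* `stab`: the stabiliser of a linear character of a normal subgroup.
* `exists_fixing`: when the degrees are `1` and `p`, every linear character of an abelian normal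
  subgroup of index `p ^ 2` is fixed by an element outside the subgroup.
* `count_le`: the resulting inequality between the order of the subgroup and the number of
  fixed points of the elements outside it.
-/

set_option autoImplicit false

namespace Cfsg.Agent.Lib.Helper3.CdPc

open Cfsg Cfsg.Agent.Lib.Helper80.Integrality Cfsg.Agent.Lib.Helper80.Restrict
open Cfsg.Agent.Lib.CT.Wedderburn Cfsg.Agent.Lib.CT.Orth
open Cfsg.Agent.Lib.Helper3 Cfsg.Agent.Lib.Helper3.CdPa Cfsg.Agent.Lib.Helper3.TDExt
open scoped ComplexConjugate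

universe u

/-- An endomorphism of a finite abelian group fixes as many linear characters as elements. -/
theorem card_fixed_hom {A : Type*} [CommGroup A] [Finite A] (σ : A →* A) :
    Nat.card {f : A →* ℂˣ // f.comp σ = f} = Nat.card {a : A // σ a = a} := by
  classical
  haveI := Fintype.ofFinite A
  haveI : Finite (A →* ℂˣ) := Cfsg.Agent.Lib.Helper25.CliffordCorr2.finite_hom
  haveI := Fintype.ofFinite (A →* ℂˣ)
  have hA : (Nat.card A : ℂ) ≠ 0 := Nat.cast_ne_zero.mpr Nat.card_pos.ne'
  have h1 : ∑ a : A, ∑ f : A →* ℂˣ, ((f (σ a * a⁻¹) : ℂˣ) : ℂ) =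
      (Nat.card A : ℂ) * (Nat.card {a : A // σ a = a} : ℂ) := by
    rw [Finset.sum_congr rfl (fun a _ =>
      Cfsg.Agent.Lib.Helper25.CliffordCorr2.sum_hom_apply (σ a * a⁻¹))]
    rw [← Finset.sum_filter, Finset.sum_const, nsmul_eq_mul, mul_comm]
    congr 2
    rw [Nat.card_eq_fintype_card, Fintype.card_subtype]
    congr 1
    ext a
    simp [mul_inv_eq_one]
  have h2 : ∑ f : A →* ℂˣ, ∑ a : A, ((f (σ a * a⁻¹) : ℂˣ) : ℂ) =
      (Nat.card A : ℂ) * (Nat.card {f : A →* ℂˣ // f.comp σ = f} : ℂ) := by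
    have hf : ∀ f : A →* ℂˣ, ∑ a : A, ((f (σ a * a⁻¹) : ℂˣ) : ℂ) =
        if f.comp σ = f then (Nat.card A : ℂ) else 0 := by
      intro f
      obtain ⟨ν, hνdef⟩ : ∃ ν : A →* ℂˣ, ν = f.comp σ * f⁻¹ := ⟨_, rfl⟩
      have hν : ∀ a, ν a = f (σ a * a⁻¹) := by
        intro a
        rw [hνdef, MonoidHom.mul_apply, MonoidHom.comp_apply, MonoidHom.inv_apply, map_mul,
          map_inv]
      rw [Finset.sum_congr rfl (fun a _ => by rw [← hν a])]
      split_ifs with h
      · have h3 : ν = 1 := by
          rw [hνdef, h]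
          exact mul_inv_cancel f
        rw [h3]
        simp [Nat.card_eq_fintype_card]
      · have h3 : ∃ a₀, ν a₀ ≠ 1 := by
          by_contra hall
          push Not at hall
          apply h
          refine MonoidHom.ext fun a => ?_
          have h4 := hall a
          rw [hνdef, MonoidHom.mul_apply, MonoidHom.inv_apply, mul_inv_eq_one] at h4
          exact h4
        obtain ⟨a₀, ha₀⟩ := h3
        exact Cfsg.Agent.Lib.Helper14.BSChar.sum_hom_eq_zero ν a₀ ha₀
    rw [Finset.sum_congr rfl (fun f _ => hf f), ← Finset.sum_filter, Finset.sum_const,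
      nsmul_eq_mul, mul_comm]
    congr 2
    rw [Nat.card_eq_fintype_card, Fintype.card_subtype]
  rw [Finset.sum_comm] at h1
  rw [h1] at h2
  have h3 := mul_left_cancel₀ hA h2
  exact_mod_cast h3.symm

/-- The number of linear characters of a finite abelian group. -/
theorem card_hom {A : Type*} [CommGroup A] [Finite A] : Nat.card (A →* ℂˣ) = Nat.card A := by
  classical
  haveI : Finite (A →* ℂˣ) := Cfsg.Agent.Lib.Helper25.CliffordCorr2.finite_hom
  haveI := Fintype.ofFinite (A →* ℂˣ)
  have h1 := Cfsg.Agent.Lib.Helper25.CliffordCorr2.sum_hom_apply (1 : A)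
  rw [if_pos rfl] at h1
  simp only [map_one, Units.val_one, Finset.sum_const, Finset.card_univ, nsmul_eq_mul,
    mul_one] at h1
  rw [Nat.card_eq_fintype_card]
  exact_mod_cast h1

variable {G : Type u} [Group G]

/-- The stabiliser of a linear character of a normal subgroup. -/
def stab (Z : Subgroup G) [Z.Normal] (f : Z →* ℂˣ) : Subgroup G where
  carrier := {g | act Z g f = f}
  mul_mem' := fun {a b} ha hb => by
    show act Z (a * b) f = f
    rw [act_mul, show act Z a f = f from ha, show act Z b f = f from hb]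
  one_mem' := act_one Z f
  inv_mem' := fun {a} ha => by
    show act Z a⁻¹ f = f
    have h1 := act_mul Z a a⁻¹ f
    rw [mul_inv_cancel, act_one, show act Z a f = f from ha] at h1
    exact h1.symm

theorem mem_stab (Z : Subgroup G) [Z.Normal] (f : Z →* ℂˣ) (g : G) :
    g ∈ stab Z f ↔ act Z g f = f := Iff.rfl

/-- In a `p`-group, a subgroup properly containing `Z` has at least `p * |Z|` elements. -/
theorem card_ge_of_lt [Finite G] (p : ℕ) (hp : p.Prime) (hG : IsPGroup p G) (Z S : Subgroup G)
    (hZS : Z ≤ S) (hne : ∃ w ∈ S, w ∉ Z) : p * Nat.card Z ≤ Nat.card S := by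
  haveI : Fact p.Prime := ⟨hp⟩
  obtain ⟨a, ha⟩ := IsPGroup.iff_card.1 (hG.to_subgroup S)
  obtain ⟨b, hb⟩ := IsPGroup.iff_card.1 (hG.to_subgroup Z)
  have hle : Nat.card Z ≤ Nat.card S := Subgroup.card_le_of_le hZS
  have hlt : Nat.card Z < Nat.card S := by
    rcases lt_or_eq_of_le hle with h | h
    · exact h
    · exfalso
      obtain ⟨w, hwS, hwZ⟩ := hne
      have h1 := Subgroup.eq_of_le_of_card_ge hZS h.ge
      exact hwZ (h1 ▸ hwS)
  rw [ha, hb] at hlt ⊢
  have hab : b < a := (Nat.pow_lt_pow_iff_right hp.one_lt).1 hlt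
  calc p * p ^ b = p ^ (b + 1) := by ring
    _ ≤ p ^ a := Nat.pow_le_pow_right hp.pos hab

/-- When the degrees are `1` and `p`, every linear character of a normal subgroup of index
`p ^ 2` is fixed by some element outside the subgroup. -/
theorem exists_fixing [Finite G] (p : ℕ) (hp : p.Prime)
    (hcd : ∀ χ : IrrCharacter G, charDegree χ.1 = 1 ∨ charDegree χ.1 = p)
    (Z : Subgroup G) [hZn : Z.Normal] (hidx : Z.index = p ^ 2) (f : Z →* ℂˣ) :
    ∃ w, w ∉ Z ∧ act Z w f = f := by
  classical
  by_contra hall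
  push Not at hall
  haveI := Fintype.ofFinite G
  haveI := Fintype.ofFinite Z
  haveI := finite_irrCharacter Z
  haveI := Fintype.ofFinite (IrrCharacter Z)
  obtain ⟨μ, hμ⟩ : ∃ μ : IrrCharacter Z, μ.1 = fun z => ((f z : ℂˣ) : ℂ) :=
    ⟨⟨_, Cfsg.Agent.Lib.CT.LinChar.isIrrCharacter_of_hom f⟩, rfl⟩
  obtain ⟨θ, hθ, -, -⟩ := TDBasic.exists_over Z μ
  have hres : IsCharacter Z (fun z : Z => θ.1 z) :=
    Cfsg.Agent.Lib.CT.Ops.isCharacter_restrict Z (isCharacter_of_irr θ.2)
  obtain ⟨mm, hmm1, -, hmm3, -⟩ := exists_mult hres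
  obtain ⟨cj, hcjdef⟩ : ∃ cj : G → IrrCharacter Z,
      ∀ g, (cj g).1 = Cfsg.Agent.Lib.CT.Clifford.conjFun Z hZn μ.1 g :=
    ⟨fun g => ⟨_, Cfsg.Agent.Lib.CT.Clifford.isIrrCharacter_conjFun Z hZn μ.2 g⟩, fun g => rfl⟩
  have hθcf : IsClassFunction G θ.1 := fun g h => irr_isClassFunction θ g h
  have hcj : ∀ g, mm (cj g) ≠ 0 := by
    intro g h0
    apply hθ
    have h1 := Cfsg.Agent.Lib.CT.Clifford.classInner_restrict_conjFun Z hZn hθcf μ.1 g
    rw [← h1, ← hcjdef g, hmm1 (cj g), h0]
    simp
  have hstab : ∀ g g₀ : G, cj g = cj g₀ → g * g₀⁻¹ ∈ Z := by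
    intro g g₀ hgg
    by_contra hnot
    apply hall _ hnot
    have h1 : Cfsg.Agent.Lib.CT.Clifford.conjFun Z hZn μ.1 g =
        Cfsg.Agent.Lib.CT.Clifford.conjFun Z hZn μ.1 g₀ := by
      rw [← hcjdef g, ← hcjdef g₀, hgg]
    have h2 : Cfsg.Agent.Lib.CT.Clifford.conjFun Z hZn μ.1 (g * g₀⁻¹) = μ.1 := by
      rw [← Cfsg.Agent.Lib.CT.Clifford.conjFun_conjFun, h1,
        Cfsg.Agent.Lib.CT.Clifford.conjFun_conjFun, mul_inv_cancel,
        Cfsg.Agent.Lib.CT.Clifford.conjFun_one]
    refine MonoidHom.ext fun z => ?_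
    rw [act_apply]
    have h3 := congrFun h2 z
    rw [Cfsg.Agent.Lib.CT.Clifford.conjFun_apply, hμ] at h3
    exact Units.ext h3
  have hfib : ∀ ν ∈ (Finset.univ : Finset G).image cj,
      ((Finset.univ : Finset G).filter (fun g => cj g = ν)).card ≤ Nat.card Z := by
    intro ν hν
    obtain ⟨g₀, -, rfl⟩ := Finset.mem_image.1 hν
    have hsub : (Finset.univ : Finset G).filter (fun g => cj g = cj g₀) ⊆
        ((Finset.univ : Finset G).filter (fun g => g ∈ Z)).image (fun z => z * g₀) := by
      intro g hg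
      rw [Finset.mem_filter] at hg
      rw [Finset.mem_image]
      exact ⟨g * g₀⁻¹, Finset.mem_filter.2 ⟨Finset.mem_univ _, hstab g g₀ hg.2⟩, by group⟩
    calc ((Finset.univ : Finset G).filter (fun g => cj g = cj g₀)).card
        ≤ (((Finset.univ : Finset G).filter (fun g => g ∈ Z)).image (fun z => z * g₀)).card :=
          Finset.card_le_card hsub
      _ ≤ ((Finset.univ : Finset G).filter (fun g => g ∈ Z)).card := Finset.card_image_le
      _ = Nat.card Z := by rw [Nat.card_eq_fintype_card, Fintype.card_subtype]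
  have h1 := Finset.card_le_mul_card_image (Finset.univ : Finset G) (Nat.card Z) hfib
  rw [Finset.card_univ, ← Nat.card_eq_fintype_card, ← Z.card_mul_index, hidx] at h1
  have hZpos : 0 < Nat.card Z := Nat.card_pos
  have h2 : p ^ 2 ≤ ((Finset.univ : Finset G).image cj).card := Nat.le_of_mul_le_mul_left h1 hZpos
  have hdeg : charDegree (fun z : Z => θ.1 z) = charDegree θ.1 := rfl
  have h3 : ((Finset.univ : Finset G).image cj).card ≤ charDegree θ.1 := by
    rw [← hdeg, hmm3, Finset.card_eq_sum_ones]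
    calc ∑ _ν ∈ (Finset.univ : Finset G).image cj, 1
        ≤ ∑ ν ∈ (Finset.univ : Finset G).image cj, mm ν * charDegree ν.1 := by
          refine Finset.sum_le_sum fun ν hν => ?_
          obtain ⟨g, -, rfl⟩ := Finset.mem_image.1 hν
          have h4 := charDegree_pos (cj g)
          have h5 := Nat.pos_of_ne_zero (hcj g)
          exact Nat.mul_pos h5 h4
      _ ≤ ∑ ν : IrrCharacter Z, mm ν * charDegree ν.1 :=
          Finset.sum_le_sum_of_subset (Finset.subset_univ _)
  have h4 : charDegree θ.1 ≤ p := by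
    rcases hcd θ with h | h
    · rw [h]
      exact hp.one_lt.le
    · exact h.le
  have h5 : p < p ^ 2 := by
    have := hp.one_lt
    nlinarith
  omega

/-- Counting fixed points in the dual of an abelian normal subgroup `Z` of a `p`-group in which
every linear character of `Z` is fixed by an element outside `Z`. -/
theorem count_le [Finite G] (p : ℕ) (hp : p.Prime) (hG : IsPGroup p G) (Z : Subgroup G)
    [hZn : Z.Normal] (hab : ∀ a ∈ Z, ∀ b ∈ Z, a * b = b * a)
    (hfix : ∀ f : Z →* ℂˣ, ∃ w, w ∉ Z ∧ act Z w f = f)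
    (c₀ : ℕ) (hc : ∀ g, g ∉ Z → Nat.card {z : Z // g * (z : G) * g⁻¹ = z} = c₀) :
    p * Nat.card Z + c₀ ≤ Nat.card Z + Z.index * c₀ := by
  classical
  letI : CommGroup Z :=
    { (inferInstance : Group Z) with mul_comm := fun a b => Subtype.ext (hab a a.2 b b.2) }
  haveI := Fintype.ofFinite G
  haveI : Finite (Z →* ℂˣ) := Cfsg.Agent.Lib.Helper25.CliffordCorr2.finite_hom
  haveI := Fintype.ofFinite (Z →* ℂˣ)
  have hX : Fintype.card (Z →* ℂˣ) = Nat.card Z := by
    rw [← Nat.card_eq_fintype_card]
    exact card_hom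
  have hfixcard : ∀ g : G, (Finset.univ.filter (fun f : Z →* ℂˣ => act Z g f = f)).card =
      if g ∈ Z then Nat.card Z else c₀ := by
    intro g
    split_ifs with hg
    · rw [Finset.filter_true_of_mem, Finset.card_univ, hX]
      intro f _
      apply act_of_centralizes Z g
      rw [Subgroup.mem_centralizer_iff]
      intro h hh
      exact hab h hh g hg
    · rw [← hc g hg, ← Fintype.card_subtype, ← Nat.card_eq_fintype_card]
      have h1 := card_fixed_hom ((MulAut.conjNormal g : Z ≃* Z).toMonoidHom)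
      refine Eq.trans ?_ (h1.trans ?_)
      · rfl
      · apply Nat.card_congr
        refine Equiv.subtypeEquivRight fun z => ?_
        rw [Subtype.ext_iff]
        rfl
  have hsum : ∑ g : G, (Finset.univ.filter (fun f : Z →* ℂˣ => act Z g f = f)).card =
      ∑ f : Z →* ℂˣ, (Finset.univ.filter (fun g : G => act Z g f = f)).card := by
    simp only [Finset.card_filter]
    exact Finset.sum_comm
  have hZcard : (Finset.univ.filter (fun g : G => g ∈ Z)).card = Nat.card Z := by
    rw [Nat.card_eq_fintype_card, Fintype.card_subtype]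
  have hlhs : ∑ g : G, (Finset.univ.filter (fun f : Z →* ℂˣ => act Z g f = f)).card + Nat.card Z * c₀ =
      Nat.card Z * Nat.card Z + Nat.card G * c₀ := by
    rw [Finset.sum_congr rfl (fun g _ => hfixcard g), Finset.sum_ite, Finset.sum_const,
      Finset.sum_const, smul_eq_mul, smul_eq_mul, hZcard]
    have h1 := Finset.card_filter_add_card_filter_not (s := (Finset.univ : Finset G))
      (fun g : G => g ∈ Z)
    rw [hZcard, Finset.card_univ, ← Nat.card_eq_fintype_card] at h1
    rw [← h1]
    ring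
  have hrhs : ∀ f : Z →* ℂˣ,
      p * Nat.card Z ≤ (Finset.univ.filter (fun g : G => act Z g f = f)).card := by
    intro f
    have h1 : (Finset.univ.filter (fun g : G => act Z g f = f)).card = Nat.card (stab Z f) := by
      rw [Nat.card_eq_fintype_card, Fintype.card_subtype]
      simp only [mem_stab]
    rw [h1]
    apply card_ge_of_lt p hp hG Z (stab Z f)
    · intro z hz
      rw [mem_stab]
      apply act_of_centralizes Z z
      rw [Subgroup.mem_centralizer_iff]
      intro h hh
      exact hab h hh z hz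
    · obtain ⟨w, hw, hwf⟩ := hfix f
      exact ⟨w, hwf, hw⟩
  have hge : Nat.card Z * (p * Nat.card Z) ≤
      ∑ f : Z →* ℂˣ, (Finset.univ.filter (fun g : G => act Z g f = f)).card := by
    calc Nat.card Z * (p * Nat.card Z) = ∑ _f : Z →* ℂˣ, p * Nat.card Z := by
          rw [Finset.sum_const, Finset.card_univ, hX, smul_eq_mul]
      _ ≤ _ := Finset.sum_le_sum fun f _ => hrhs f
  rw [← hsum] at hge
  have hcard := Z.card_mul_index
  have hZpos : 0 < Nat.card Z := Nat.card_pos
  have hfinal : Nat.card Z * (p * Nat.card Z + c₀) ≤ Nat.card Z * (Nat.card Z + Z.index * c₀) := by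
    calc Nat.card Z * (p * Nat.card Z + c₀) = Nat.card Z * (p * Nat.card Z) + Nat.card Z * c₀ := by
          ring
      _ ≤ ∑ g : G, (Finset.univ.filter (fun f : Z →* ℂˣ => act Z g f = f)).card +
            Nat.card Z * c₀ := Nat.add_le_add_right hge _
      _ = Nat.card Z * Nat.card Z + Nat.card G * c₀ := hlhs
      _ = Nat.card Z * (Nat.card Z + Z.index * c₀) := by
          rw [← hcard]
          ring
  exact Nat.le_of_mul_le_mul_left hfinal hZpos

end Cfsg.Agent.Lib.Helper3.CdPc
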