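import Mathlib
import Cfsg.Agent.Lib.Helper3.CdPc

/-!
Groups with character degrees `1` and `p`: the structure theorem for `p`-groups and its transfer
to groups of the form `P × A` with `A` abelian.

* `pgroup_case`: a nonabelian `p`-group with degrees `1` and `p` has an abelian normal subgroup
  of index `p` or a centre of index `p ^ 3`.
* `product_case`: the same conclusion for a group which is the product of a normal `p`-subgroup
  and a normal abelian subgroup meeting trivially.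
-/

set_option autoImplicit false

namespace Cfsg.Agent.Lib.Helper3.CdPd

open Cfsg Cfsg.Agent.Lib.Helper80.Integrality Cfsg.Agent.Lib.Helper80.Restrict
open Cfsg.Agent.Lib.CT.Wedderburn Cfsg.Agent.Lib.CT.Orth
open Cfsg.Agent.Lib.Helper3 Cfsg.Agent.Lib.Helper3.CdPa Cfsg.Agent.Lib.Helper3.CdPb
open Cfsg.Agent.Lib.Helper3.CdPc Cfsg.Agent.Lib.Helper3.TDExt

universe u
variable {G : Type u} [Group G]

/-- If `x` commutes with the abelian subgroup `Z` then `Z ⊔ ⟨x⟩` is abelian. -/
theorem comm_sup_zpowers (Z : Subgroup G) (hZab : ∀ a ∈ Z, ∀ b ∈ Z, a * b = b * a) (x : G)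
    (hxc : ∀ z ∈ Z, x * z = z * x) :
    ∀ a ∈ Z ⊔ Subgroup.zpowers x, ∀ b ∈ Z ⊔ Subgroup.zpowers x, a * b = b * a := by
  intro a ha b hb
  have h1 : Z ⊔ Subgroup.zpowers x ≤ Subgroup.centralizer ((Z : Set G) ∪ {x}) := by
    apply sup_le
    · intro z hz
      rw [Subgroup.mem_centralizer_iff]
      intro y hy
      rcases hy with hy | hy
      · exact hZab y hy z hz
      · rw [Set.mem_singleton_iff] at hy
        rw [hy]
        exact hxc z hz
    · rw [Subgroup.zpowers_le, Subgroup.mem_centralizer_iff]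
      intro y hy
      rcases hy with hy | hy
      · exact (hxc y hy).symm
      · rw [Set.mem_singleton_iff] at hy
        rw [hy]
  have h2 : Z ⊔ Subgroup.zpowers x ≤
      Subgroup.centralizer ((Z ⊔ Subgroup.zpowers x : Subgroup G) : Set G) := by
    apply sup_le
    · intro z hz
      rw [Subgroup.mem_centralizer_iff]
      intro m hm
      exact (Subgroup.mem_centralizer_iff.1 (h1 hm) z (Or.inl hz)).symm
    · rw [Subgroup.zpowers_le, Subgroup.mem_centralizer_iff]
      intro m hm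
      exact (Subgroup.mem_centralizer_iff.1 (h1 hm) x (Or.inr rfl)).symm
  exact Subgroup.mem_centralizer_iff.1 (h2 hb) a ha

/-- If `x` and the abelian subgroup `Z` commute with `z` then so does `Z ⊔ ⟨x⟩`. -/
theorem comm_of_mem_sup_zpowers (Z : Subgroup G) (x z : G) (hZ : ∀ a ∈ Z, a * z = z * a)
    (hx : x * z = z * x) : ∀ m ∈ Z ⊔ Subgroup.zpowers x, m * z = z * m := by
  have h1 : Z ⊔ Subgroup.zpowers x ≤ Subgroup.centralizer ({z} : Set G) := by
    apply sup_le
    · intro a ha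
      rw [Subgroup.mem_centralizer_iff]
      intro y hy
      rw [Set.mem_singleton_iff] at hy
      rw [hy]
      exact (hZ a ha).symm
    · rw [Subgroup.zpowers_le, Subgroup.mem_centralizer_iff]
      intro y hy
      rw [Set.mem_singleton_iff] at hy
      rw [hy]
      exact hx.symm
  intro m hm
  exact (Subgroup.mem_centralizer_iff.1 (h1 hm) z rfl).symm

/-- The structure of nonabelian `p`-groups with character degrees `1` and `p`. -/
theorem pgroup_case [Finite G] (p : ℕ) (hp : p.Prime) (hG : IsPGroup p G)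
    (hcd : ∀ χ : IrrCharacter G, charDegree χ.1 = 1 ∨ charDegree χ.1 = p)
    (hnab : ∃ a b : G, a * b ≠ b * a) :
    (∃ A : Subgroup G, A.Normal ∧ (∀ a ∈ A, ∀ b ∈ A, a * b = b * a) ∧ A.index = p) ∨
      (Subgroup.center G).index = p ^ 3 := by
  classical
  obtain ⟨χ, Z, hZn, hχp, hZ, hvan, hcomm, hidx⟩ := exists_center_char p hp hG hcd hnab
  haveI := hZn
  have hp2 : 1 < p ^ 2 := by
    have := hp.one_lt
    nlinarith
  have hZtop : Z ≠ ⊤ := by
    intro h
    rw [h, Subgroup.index_top] at hidx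
    omega
  have hZab := abelian_center p hp hcd χ hχp Z hZ hvan hcomm hZtop
  obtain ⟨x₀, hx₀⟩ : ∃ x, x ∉ Z := by
    by_contra hall
    push Not at hall
    exact hZtop (eq_top_iff.2 (fun g _ => hall g))
  by_cases hcase : ∃ x, x ∉ Z ∧ ∀ z ∈ Z, x * z = z * x
  · left
    obtain ⟨x, hx, hxc⟩ := hcase
    refine ⟨Z ⊔ Subgroup.zpowers x, normal_of_comm_le Z _ hcomm le_sup_left,
      comm_sup_zpowers Z hZab x hxc, ?_⟩
    obtain ⟨M, hMdef⟩ : ∃ M : Subgroup G, M = Z ⊔ Subgroup.zpowers x := ⟨_, rfl⟩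
    rw [← hMdef]
    have hZM : Z ≤ M := hMdef ▸ le_sup_left
    have hxM : x ∈ M := by
      rw [hMdef]
      exact (le_sup_right : Subgroup.zpowers x ≤ Z ⊔ Subgroup.zpowers x) (Subgroup.mem_zpowers x)
    have hMtop : M ≠ ⊤ := hMdef ▸ sup_zpowers_ne_top χ Z hZ x hx
    have h1 := Subgroup.relIndex_mul_index hZM
    rw [hidx] at h1
    have hdvd : M.index ∣ p ^ 2 := Dvd.intro_left _ h1
    obtain ⟨j, hj, hjeq⟩ := (Nat.dvd_prime_pow hp).1 hdvd
    have hj0 : j ≠ 0 := by
      rintro rfl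
      rw [pow_zero] at hjeq
      exact hMtop (Subgroup.index_eq_one.1 hjeq)
    have hj2 : j ≠ 2 := by
      rintro rfl
      rw [hjeq] at h1
      have h2 : Z.relIndex M = 1 := by
        have hpos : 0 < p ^ 2 := pow_pos hp.pos 2
        exact Nat.eq_of_mul_eq_mul_right hpos (by rw [h1, one_mul])
      exact hx (Subgroup.relIndex_eq_one.1 h2 hxM)
    have hj1 : j = 1 := by omega
    rw [hjeq, hj1, pow_one]
  · right
    push Not at hcase
    have hcZ : Subgroup.center G ≤ Z := fun z hz =>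
      (hZ z).2 (Cfsg.Agent.Lib.CT.Kernel.norm_eq_of_mem_center χ.2 hz)
    have hcent : ∀ x, x ∉ Z → ∀ z ∈ Z, x * z = z * x → z ∈ Subgroup.center G := by
      intro x hx z hz hxz
      obtain ⟨z', hz', hxz'⟩ := hcase x hx
      haveI : (Z ⊔ Subgroup.zpowers x).Normal := normal_of_comm_le Z _ hcomm le_sup_left
      have hxM : x ∈ Z ⊔ Subgroup.zpowers x :=
        (le_sup_right : Subgroup.zpowers x ≤ Z ⊔ Subgroup.zpowers x) (Subgroup.mem_zpowers x)
      have hZM : Z ≤ Z ⊔ Subgroup.zpowers x := le_sup_left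
      exact center_le_center p hp hcd (Z ⊔ Subgroup.zpowers x)
        ⟨x, hxM, z', hZM hz', hxz'⟩ z (hZM hz)
        (comm_of_mem_sup_zpowers Z x z (fun a ha => hZab a ha z hz) hxz)
    have hfix := fun f => exists_fixing p hp hcd Z hidx f
    have hc : ∀ g, g ∉ Z → Nat.card {z : Z // g * (z : G) * g⁻¹ = z} =
        Nat.card (Subgroup.center G) := by
      intro g hg
      apply Nat.card_congr
      refine
        { toFun := fun z => ⟨z.1.1, hcent g hg z.1.1 z.1.2 ?_⟩
          invFun := fun c => ⟨⟨c.1, hcZ c.2⟩, ?_⟩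
          left_inv := fun z => rfl
          right_inv := fun c => rfl }
      · have h1 := z.2
        calc g * (z.1 : G) = g * (z.1 : G) * g⁻¹ * g := by group
          _ = (z.1 : G) * g := by rw [h1]
      · have h1 := Subgroup.mem_center_iff.1 c.2 g
        show g * (c : G) * g⁻¹ = c
        rw [h1]
        group
    have hcount := count_le p hp hG Z hZab hfix _ hc
    rw [hidx] at hcount
    haveI : Fact p.Prime := ⟨hp⟩
    obtain ⟨a, ha⟩ := IsPGroup.iff_card.1 (hG.to_subgroup Z)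
    obtain ⟨b, hb⟩ := IsPGroup.iff_card.1 (hG.to_subgroup (Subgroup.center G))
    have hle : Nat.card (Subgroup.center G) ≤ Nat.card Z := Subgroup.card_le_of_le hcZ
    have hne : Nat.card (Subgroup.center G) ≠ Nat.card Z := by
      intro h
      have h1 := Subgroup.eq_of_le_of_card_ge hcZ h.ge
      obtain ⟨z', hz', hxz'⟩ := hcase x₀ hx₀
      rw [← h1] at hz'
      exact hxz' (Subgroup.mem_center_iff.1 hz' x₀)
    rw [ha, hb] at hle hne hcount
    have hba : b ≤ a := (Nat.pow_le_pow_iff_right hp.one_lt).1 hle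
    have hba' : b ≠ a := fun h => hne (by rw [h])
    have hab1 : a = b + 1 := by
      by_contra hne1
      obtain ⟨e, he⟩ : ∃ e, a = b + 2 + e := ⟨a - b - 2, by omega⟩
      rw [he, pow_add, pow_add] at hcount
      have hB : 0 < p ^ b := pow_pos hp.pos b
      have hE : 0 < p ^ e := pow_pos hp.pos e
      have h1 : 2 * (p ^ 2 * p ^ e) ≤ p * (p ^ 2 * p ^ e) := Nat.mul_le_mul_right _ hp.two_le
      have h2 : p ^ 2 ≤ p ^ 2 * p ^ e := Nat.le_mul_of_pos_right _ hE
      have h3 := Nat.mul_le_mul_left (p ^ b) h1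
      have h4 := Nat.mul_le_mul_left (p ^ b) h2
      nlinarith
    have h5 := (Subgroup.center G).card_mul_index
    have h6 := Z.card_mul_index
    rw [hb] at h5
    rw [ha, hidx, hab1] at h6
    have hB : 0 < p ^ b := pow_pos hp.pos b
    apply Nat.eq_of_mul_eq_mul_left hB
    rw [h5, ← h6]
    ring

/-- A commutator is unchanged by a central factor on the left. -/
theorem comm_mul_central_left (g h y : G) (hy : y ∈ Subgroup.center G) :
    (g * y) * h * (g * y)⁻¹ * h⁻¹ = g * h * g⁻¹ * h⁻¹ := by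
  have hyh : y * h = h * y := (Subgroup.mem_center_iff.1 hy h).symm
  calc (g * y) * h * (g * y)⁻¹ * h⁻¹ = g * (y * h) * y⁻¹ * g⁻¹ * h⁻¹ := by group
    _ = g * (h * y) * y⁻¹ * g⁻¹ * h⁻¹ := by rw [hyh]
    _ = g * h * g⁻¹ * h⁻¹ := by group

/-- A commutator is unchanged by a central factor on the right. -/
theorem comm_mul_central_right (g h y : G) (hy : y ∈ Subgroup.center G) :
    g * (h * y) * g⁻¹ * (h * y)⁻¹ = g * h * g⁻¹ * h⁻¹ := by
  have hyg : y * g⁻¹ = g⁻¹ * y := (Subgroup.mem_center_iff.1 hy g⁻¹).symm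
  calc g * (h * y) * g⁻¹ * (h * y)⁻¹ = g * h * (y * g⁻¹) * y⁻¹ * h⁻¹ := by group
    _ = g * h * (g⁻¹ * y) * y⁻¹ * h⁻¹ := by rw [hyg]
    _ = g * h * g⁻¹ * h⁻¹ := by group

/-- The structure theorem for a nonabelian group with character degrees `1` and `p` which is the
product of a normal `p`-subgroup and a normal abelian subgroup meeting trivially. -/
theorem product_case [Finite G] (p : ℕ) (hp : p.Prime)
    (hcd : ∀ χ : IrrCharacter G, charDegree χ.1 = 1 ∨ charDegree χ.1 = p)
    (hG : ∃ a b : G, a * b ≠ b * a)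
    (P A : Subgroup G) [hPn : P.Normal] [hAn : A.Normal] (hP : IsPGroup p P)
    (hA : ∀ a ∈ A, ∀ b ∈ A, a * b = b * a) (hPA : P ⊓ A = ⊥) (hsup : P ⊔ A = ⊤) :
    (∃ B : Subgroup G, B.Normal ∧ (∀ a ∈ B, ∀ b ∈ B, a * b = b * a) ∧ B.index = p) ∨
      (Subgroup.center G).index = p ^ 3 := by
  classical
  have hAc : A ≤ Subgroup.center G := by
    intro a ha
    rw [Subgroup.mem_center_iff]
    intro g
    obtain ⟨x, hx, y, hy, rfl⟩ := Cfsg.Agent.Lib.Helper3.Frob.exists_mul hsup g
    have h1 : x * a = a * x :=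
      (Subgroup.commute_of_normal_of_disjoint P A hPn hAn (disjoint_iff.2 hPA) x a hx ha).eq
    have h2 : y * a = a * y := hA y hy a ha
    calc x * y * a = x * (y * a) := by group
      _ = x * (a * y) := by rw [h2]
      _ = (x * a) * y := by group
      _ = a * x * y := by rw [h1]
      _ = a * (x * y) := by group
  have hcP : ∀ g h : G, g * h * g⁻¹ * h⁻¹ ∈ P := by
    intro g h
    obtain ⟨x₁, hx₁, y₁, hy₁, rfl⟩ := Cfsg.Agent.Lib.Helper3.Frob.exists_mul hsup g
    obtain ⟨x₂, hx₂, y₂, hy₂, rfl⟩ := Cfsg.Agent.Lib.Helper3.Frob.exists_mul hsup h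
    rw [comm_mul_central_left _ _ _ (hAc hy₁), comm_mul_central_right _ _ _ (hAc hy₂)]
    exact P.mul_mem (P.mul_mem (P.mul_mem hx₁ hx₂) (P.inv_mem hx₁)) (P.inv_mem hx₂)
  have hcA : ∀ g h : G, g * h * g⁻¹ * h⁻¹ ∈ A → g * h = h * g := by
    intro g h hgh
    have h1 : g * h * g⁻¹ * h⁻¹ ∈ P ⊓ A := ⟨hcP g h, hgh⟩
    rw [hPA, Subgroup.mem_bot] at h1
    calc g * h = (g * h * g⁻¹ * h⁻¹) * (h * g) := by group
      _ = h * g := by rw [h1, one_mul]
  have hQ : IsPGroup p (G ⧸ A) := by
    apply hP.of_surjective ((QuotientGroup.mk' A).comp P.subtype)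
    intro q
    obtain ⟨g, rfl⟩ := QuotientGroup.mk_surjective q
    obtain ⟨x, hx, y, hy, rfl⟩ := Cfsg.Agent.Lib.Helper3.Frob.exists_mul hsup g
    refine ⟨⟨x, hx⟩, ?_⟩
    show ((x : G) : G ⧸ A) = ((x * y : G) : G ⧸ A)
    rw [QuotientGroup.mk_mul, (QuotientGroup.eq_one_iff y).2 hy, mul_one]
  have hcdQ : ∀ ψ : IrrCharacter (G ⧸ A), charDegree ψ.1 = 1 ∨ charDegree ψ.1 = p := by
    intro ψ
    have h1 := hcd (TDBasic.infl A ψ)
    rwa [TDBasic.charDegree_infl] at h1
  have hmk : ∀ a b : G, (a : G ⧸ A) * (b : G ⧸ A) = (b : G ⧸ A) * (a : G ⧸ A) →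
      a * b = b * a := by
    intro a b h
    apply hcA
    apply (QuotientGroup.eq_one_iff _).1
    rw [QuotientGroup.mk_mul, QuotientGroup.mk_mul, QuotientGroup.mk_mul, QuotientGroup.mk_inv,
      QuotientGroup.mk_inv, h]
    group
  have hnabQ : ∃ a b : G ⧸ A, a * b ≠ b * a := by
    obtain ⟨a, b, hab⟩ := hG
    exact ⟨(a : G ⧸ A), (b : G ⧸ A), fun h => hab (hmk a b h)⟩
  rcases pgroup_case p hp hQ hcdQ hnabQ with ⟨B, hBn, hBab, hBidx⟩ | hcen
  · left
    haveI := hBn
    refine ⟨B.comap (QuotientGroup.mk' A), inferInstance, ?_, ?_⟩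
    · intro a ha b hb
      exact hmk a b (hBab _ (Subgroup.mem_comap.1 ha) _ (Subgroup.mem_comap.1 hb))
    · rw [Subgroup.index_comap_of_surjective _ (QuotientGroup.mk'_surjective A)]
      exact hBidx
  · right
    have hcomap : (Subgroup.center (G ⧸ A)).comap (QuotientGroup.mk' A) = Subgroup.center G := by
      ext z
      rw [Subgroup.mem_comap, Subgroup.mem_center_iff, Subgroup.mem_center_iff]
      constructor
      · intro h g
        exact hmk g z (h (g : G ⧸ A))
      · intro h q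
        obtain ⟨g, rfl⟩ := QuotientGroup.mk_surjective q
        show (g : G ⧸ A) * (z : G ⧸ A) = (z : G ⧸ A) * (g : G ⧸ A)
        rw [← QuotientGroup.mk_mul, ← QuotientGroup.mk_mul, h g]
    rw [← hcomap, Subgroup.index_comap_of_surjective _ (QuotientGroup.mk'_surjective A)]
    exact hcen

end Cfsg.Agent.Lib.Helper3.CdPd
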