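import Mathlib

/-!
# The group `A^(ZMod p) ⋊ Heis_p`

`Hs A p` has elements `(f, a, b, c)` with `f : ZMod p → A` and `a b c : ZMod p`, and product
`(f, a, b, c) * (f', a', b', c') = (i ↦ f i * f' (i - a), a + a', b + b', c + c' + a * b')`.
It is the semidirect product of `A^(ZMod p)` with the Heisenberg group of order `p ^ 3`,
the latter acting through its quotient `a` by shifting coordinates.
-/

set_option autoImplicit false

namespace Cfsg.Agent.Lib.Helper3.GagGrp

universe u

/-- The underlying type of `A^(ZMod p) ⋊ Heis_p`. -/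
@[ext]
structure Hs (A : Type u) (p : ℕ) where
  /-- the tuple of elements of `A` -/
  f : ZMod p → A
  /-- the shift -/
  a : ZMod p
  /-- the partner of the shift -/
  b : ZMod p
  /-- the central coordinate -/
  c : ZMod p

variable {A : Type u} [Group A] {p : ℕ}

instance : Mul (Hs A p) :=
  ⟨fun x y => ⟨fun i => x.f i * y.f (i - x.a), x.a + y.a, x.b + y.b, x.c + y.c + x.a * y.b⟩⟩

instance : One (Hs A p) := ⟨⟨fun _ => 1, 0, 0, 0⟩⟩

instance : Inv (Hs A p) :=
  ⟨fun x => ⟨fun i => (x.f (i + x.a))⁻¹, -x.a, -x.b, -x.c + x.a * x.b⟩⟩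

@[simp] theorem mul_f (x y : Hs A p) (i : ZMod p) : (x * y).f i = x.f i * y.f (i - x.a) := rfl
@[simp] theorem mul_a (x y : Hs A p) : (x * y).a = x.a + y.a := rfl
@[simp] theorem mul_b (x y : Hs A p) : (x * y).b = x.b + y.b := rfl
@[simp] theorem mul_c (x y : Hs A p) : (x * y).c = x.c + y.c + x.a * y.b := rfl
@[simp] theorem one_f (i : ZMod p) : (1 : Hs A p).f i = 1 := rfl
@[simp] theorem one_a : (1 : Hs A p).a = 0 := rfl
@[simp] theorem one_b : (1 : Hs A p).b = 0 := rfl
@[simp] theorem one_c : (1 : Hs A p).c = 0 := rfl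
@[simp] theorem inv_f (x : Hs A p) (i : ZMod p) : (x⁻¹).f i = (x.f (i + x.a))⁻¹ := rfl
@[simp] theorem inv_a (x : Hs A p) : (x⁻¹).a = -x.a := rfl
@[simp] theorem inv_b (x : Hs A p) : (x⁻¹).b = -x.b := rfl
@[simp] theorem inv_c (x : Hs A p) : (x⁻¹).c = -x.c + x.a * x.b := rfl

instance : Group (Hs A p) where
  mul_assoc x y z := by
    ext i
    · simp only [mul_f, mul_a, mul_assoc, sub_add_eq_sub_sub]
    · simp only [mul_a, add_assoc]
    · simp only [mul_b, add_assoc]
    · simp only [mul_c, mul_a, mul_b]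
      ring
  one_mul x := by
    ext i
    · simp
    · simp
    · simp
    · simp
  mul_one x := by
    ext i
    · simp
    · simp
    · simp
    · simp
  inv_mul_cancel x := by
    ext i
    · simp
    · simp
    · simp
    · simp

/-- `Hs A p` as a product type. -/
def equivProd : Hs A p ≃ (ZMod p → A) × ZMod p × ZMod p × ZMod p where
  toFun x := (x.f, x.a, x.b, x.c)
  invFun y := ⟨y.1, y.2.1, y.2.2.1, y.2.2.2⟩
  left_inv _ := rfl
  right_inv _ := rfl

instance [Finite A] [NeZero p] : Finite (Hs A p) := Finite.of_equiv _ equivProd.symm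

theorem card_eq [Finite A] [NeZero p] : Nat.card (Hs A p) = Nat.card A ^ p * p ^ 3 := by
  rw [Nat.card_congr (equivProd (A := A) (p := p)), Nat.card_prod, Nat.card_prod, Nat.card_prod,
    Nat.card_pi, Nat.card_zmod, Finset.prod_const, Finset.card_univ, ZMod.card]
  ring

/-- Conjugation formulas. -/
theorem conj_a (x g : Hs A p) : (x⁻¹ * g * x).a = g.a := by
  simp

theorem conj_b (x g : Hs A p) : (x⁻¹ * g * x).b = g.b := by
  simp

theorem conj_c (x g : Hs A p) (hg : g.a = 0) : (x⁻¹ * g * x).c = g.c - x.a * g.b := by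
  simp only [mul_c, inv_c, mul_a, inv_a, hg]
  ring

theorem conj_f (x g : Hs A p) (hg : g.a = 0) (i : ZMod p) :
    (x⁻¹ * g * x).f i = (x.f (i + x.a))⁻¹ * g.f (i + x.a) * x.f (i + x.a) := by
  simp only [mul_f, inv_f, mul_a, inv_a, hg, add_zero, sub_neg_eq_add]

/-- Summation over `Hs A p`. -/
theorem sum_eq [Fintype A] [NeZero p] [Fintype (Hs A p)] (F : Hs A p → ℂ) :
    ∑ x : Hs A p, F x = ∑ f : ZMod p → A, ∑ a : ZMod p, ∑ b : ZMod p, ∑ c : ZMod p,
      F ⟨f, a, b, c⟩ := by
  rw [← Fintype.sum_equiv (equivProd (A := A) (p := p)).symm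
    (fun y => F ⟨y.1, y.2.1, y.2.2.1, y.2.2.2⟩) F (fun y => rfl)]
  rw [Fintype.sum_prod_type]
  refine Finset.sum_congr rfl fun f _ => ?_
  rw [Fintype.sum_prod_type]
  refine Finset.sum_congr rfl fun a _ => ?_
  rw [Fintype.sum_prod_type]

end Cfsg.Agent.Lib.Helper3.GagGrp
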