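import Mathlib
import Cfsg.Prelude.Def_Characters
import Cfsg.Agent.Lib.Helper3.GagGrp
import Cfsg.Agent.Lib.Helper3.WrPi
import Cfsg.Agent.Lib.CT.Ops
import Cfsg.Agent.Lib.CT.LinChar
import Cfsg.Agent.Lib.CT.FrobRec
import Cfsg.Agent.Lib.CT.IndChar
import Cfsg.Agent.Lib.CT.NormOne
import Cfsg.Agent.Lib.CT.Orth

/-!
# A character of `A^(ZMod p) ⋊ Heis_p` vanishing off a small subgroup

For a character `χ₀` of `A`, the function `chiFun χ₀` on `Hs A p` is induced from the subgroup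
`a = 0`, and has the values `p * e(c) * ∏ i, χ₀ (f i)` when `a = 0` and `b = 0`, and `0` otherwise.
It is irreducible when `χ₀` is.
-/

set_option autoImplicit false

namespace Cfsg.Agent.Lib.Helper3.GagChar

open Cfsg Cfsg.Agent.Lib.Helper3.GagGrp
open scoped ComplexConjugate

universe u

variable {A : Type u} [Group A] {p : ℕ}

/-- The subgroup `a = 0` of `Hs A p`. -/
def baseSub (A : Type u) [Group A] (p : ℕ) : Subgroup (Hs A p) where
  carrier := {x | x.a = 0}
  mul_mem' := by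
    intro x y hx hy
    simp only [Set.mem_ofPred_eq] at hx hy ⊢
    rw [mul_a, hx, hy, add_zero]
  one_mem' := rfl
  inv_mem' := by
    intro x hx
    simp only [Set.mem_ofPred_eq] at hx ⊢
    rw [inv_a, hx, neg_zero]

theorem mem_baseSub (x : Hs A p) : x ∈ baseSub A p ↔ x.a = 0 := Iff.rfl

/-- `baseSub` as a product type. -/
def baseEquiv : baseSub A p ≃ (ZMod p → A) × ZMod p × ZMod p where
  toFun m := (m.1.f, m.1.b, m.1.c)
  invFun y := ⟨⟨y.1, 0, y.2.1, y.2.2⟩, rfl⟩
  left_inv m := by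
    apply Subtype.ext
    apply Hs.ext
    · rfl
    · exact m.2.symm
    · rfl
    · rfl
  right_inv _ := rfl

theorem card_baseSub [Finite A] [NeZero p] :
    Nat.card (baseSub A p) = Nat.card A ^ p * p ^ 2 := by
  rw [Nat.card_congr (baseEquiv (A := A) (p := p)), Nat.card_prod, Nat.card_prod,
    Nat.card_pi, Nat.card_zmod, Finset.prod_const, Finset.card_univ, ZMod.card]
  ring

/-- The projection of `baseSub` to the tuple. -/
def projF (A : Type u) [Group A] (p : ℕ) : baseSub A p →* (ZMod p → A) where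
  toFun m := m.1.f
  map_one' := rfl
  map_mul' m m' := by
    funext i
    have h : m.1.a = 0 := m.2
    show (m.1 * m'.1).f i = m.1.f i * m'.1.f i
    rw [mul_f, h, sub_zero]

/-- The linear character `e(c)` of `baseSub`. -/
noncomputable def linC (A : Type u) [Group A] (p : ℕ) [NeZero p] : baseSub A p →* ℂˣ where
  toFun m := Units.mk0 (ZMod.stdAddChar (N := p) m.1.c) (AddChar.val_isUnit _ _).ne_zero
  map_one' := by
    apply Units.ext
    show ZMod.stdAddChar (N := p) (0 : ZMod p) = 1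
    exact AddChar.map_zero_eq_one _
  map_mul' m m' := by
    apply Units.ext
    have h : m.1.a = 0 := m.2
    show ZMod.stdAddChar (N := p) ((m.1 * m'.1).c) =
      ZMod.stdAddChar (N := p) m.1.c * ZMod.stdAddChar (N := p) m'.1.c
    rw [mul_c, h, zero_mul, add_zero, AddChar.map_add_eq_mul]

/-- The character of `baseSub` that is induced. -/
noncomputable def thetaFun [NeZero p] (χ₀ : A → ℂ) : baseSub A p → ℂ :=
  fun m => ZMod.stdAddChar (N := p) m.1.c * ∏ i, χ₀ (m.1.f i)

theorem isCharacter_thetaFun [NeZero p] {χ₀ : A → ℂ} (h : IsCharacter A χ₀) :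
    IsCharacter (baseSub A p) (thetaFun χ₀) := by
  have h1 : IsCharacter (baseSub A p) (fun m => ((linC A p m : ℂˣ) : ℂ)) :=
    Cfsg.Agent.Lib.CT.LinChar.isCharacter_of_hom (linC A p)
  have h2 : IsCharacter (ZMod p → A) (Cfsg.Agent.Lib.Helper3.WrPi.piChar fun _ : ZMod p => χ₀) :=
    Cfsg.Agent.Lib.Helper3.WrPi.isCharacter_piChar _ (fun _ => h)
  have h3 := Cfsg.Agent.Lib.CT.Ops.isCharacter_comp_hom (projF A p) h2
  have h4 := Cfsg.Agent.Lib.CT.Ops.isCharacter_mul h1 h3
  exact h4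

/-- The induced character. -/
noncomputable def chiFun [NeZero p] [Fintype (Hs A p)] (χ₀ : A → ℂ) : Hs A p → ℂ :=
  indFun (baseSub A p) (thetaFun χ₀)

theorem isCharacter_chiFun [NeZero p] [Fintype (Hs A p)] {χ₀ : A → ℂ} (h : IsCharacter A χ₀) :
    IsCharacter (Hs A p) (chiFun χ₀) :=
  Cfsg.Agent.Lib.CT.IndChar.isCharacter_indFun _ _ (isCharacter_thetaFun h)

theorem chiFun_apply [Fact p.Prime] [Fintype A] [Fintype (Hs A p)] {χ₀ : A → ℂ}
    (hcl : IsClassFunction A χ₀) (g : Hs A p) :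
    chiFun χ₀ g = if g.a = 0 ∧ g.b = 0 then
      (p : ℂ) * ZMod.stdAddChar (N := p) g.c * ∏ i, χ₀ (g.f i) else 0 := by
  classical
  haveI : NeZero p := ⟨(Fact.out : p.Prime).ne_zero⟩
  unfold chiFun indFun
  by_cases ha : g.a = 0
  · have hterm : ∀ x : Hs A p, extendByZero (baseSub A p) (thetaFun χ₀) (x⁻¹ * g * x) =
        ZMod.stdAddChar (N := p) g.c * (∏ i, χ₀ (g.f i)) *
          ZMod.stdAddChar (N := p) (x.a * (-g.b)) := by
      intro x
      have hmem : x⁻¹ * g * x ∈ baseSub A p := by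
        rw [mem_baseSub, conj_a, ha]
      rw [Cfsg.Agent.Lib.CT.FrobRec.extendByZero_apply_of_mem _ _ hmem]
      unfold thetaFun
      simp only
      rw [conj_c x g ha]
      have h1 : ∏ i, χ₀ ((x⁻¹ * g * x).f i) = ∏ i, χ₀ (g.f i) := by
        have h2 : ∀ i, χ₀ ((x⁻¹ * g * x).f i) = χ₀ (g.f (i + x.a)) := by
          intro i
          rw [conj_f x g ha]
          have := hcl (g.f (i + x.a)) (x.f (i + x.a))⁻¹
          rw [inv_inv] at this
          exact this
        rw [Finset.prod_congr rfl (fun i _ => h2 i)]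
        exact Fintype.prod_equiv (Equiv.addRight x.a) _ _ (fun i => rfl)
      rw [h1]
      have h3 : g.c - x.a * g.b = g.c + x.a * (-g.b) := by ring
      rw [h3, AddChar.map_add_eq_mul]
      ring
    rw [Finset.sum_congr rfl (fun x _ => hterm x), sum_eq]
    have hsum : ∀ f : ZMod p → A, ∑ a : ZMod p, ∑ b : ZMod p, ∑ c : ZMod p,
        ZMod.stdAddChar (N := p) g.c * (∏ i, χ₀ (g.f i)) *
          ZMod.stdAddChar (N := p) ((⟨f, a, b, c⟩ : Hs A p).a * (-g.b)) =
        (p : ℂ) ^ 2 * (ZMod.stdAddChar (N := p) g.c * (∏ i, χ₀ (g.f i))) *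
          (if g.b = 0 then (p : ℂ) else 0) := by
      intro f
      simp only [Finset.sum_const, Finset.card_univ, ZMod.card, nsmul_eq_mul]
      rw [← Finset.mul_sum, ← Finset.mul_sum, ← Finset.mul_sum]
      rw [AddChar.sum_mulShift (-g.b) (ZMod.isPrimitive_stdAddChar p)]
      simp only [neg_eq_zero, ZMod.card]
      split_ifs <;> push_cast <;> ring
    rw [Finset.sum_congr rfl (fun f _ => hsum f)]
    simp only [Finset.sum_const, Finset.card_univ, nsmul_eq_mul]
    rw [card_baseSub, Fintype.card_pi, Finset.prod_const, Finset.card_univ, ZMod.card]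
    have hA : (Nat.card A : ℂ) ≠ 0 := Nat.cast_ne_zero.mpr Nat.card_pos.ne'
    have hp : (p : ℂ) ≠ 0 := Nat.cast_ne_zero.mpr (Fact.out : p.Prime).ne_zero
    rw [← Nat.card_eq_fintype_card]
    by_cases hb : g.b = 0
    · rw [if_pos hb, if_pos ⟨ha, hb⟩]
      push_cast
      field_simp
    · rw [if_neg hb, if_neg (fun h => hb h.2)]
      simp
  · rw [if_neg (fun h => ha h.1)]
    have hterm : ∀ x : Hs A p, extendByZero (baseSub A p) (thetaFun χ₀) (x⁻¹ * g * x) = 0 := by
      intro x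
      apply Cfsg.Agent.Lib.CT.FrobRec.extendByZero_apply_of_not_mem _ _
      rw [mem_baseSub, conj_a]
      exact ha
    rw [Finset.sum_congr rfl (fun x _ => hterm x)]
    simp

theorem classInner_chiFun [Fact p.Prime] [Fintype A] [Fintype (Hs A p)] {χ₀ : A → ℂ}
    (hcl : IsClassFunction A χ₀) (h1 : classInner χ₀ χ₀ = 1) :
    classInner (chiFun (p := p) χ₀) (chiFun χ₀) = 1 := by
  classical
  haveI : NeZero p := ⟨(Fact.out : p.Prime).ne_zero⟩
  unfold classInner
  rw [sum_eq]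
  have hA : (Nat.card A : ℂ) ≠ 0 := Nat.cast_ne_zero.mpr Nat.card_pos.ne'
  have hp : (p : ℂ) ≠ 0 := Nat.cast_ne_zero.mpr (Fact.out : p.Prime).ne_zero
  have hinner : ∀ f : ZMod p → A, ∑ a : ZMod p, ∑ b : ZMod p, ∑ c : ZMod p,
      chiFun χ₀ (⟨f, a, b, c⟩ : Hs A p) * conj (chiFun χ₀ (⟨f, a, b, c⟩ : Hs A p)) =
      (p : ℂ) ^ 3 * ∏ i, (χ₀ (f i) * conj (χ₀ (f i))) := by
    intro f
    have h2 : ∀ a b c : ZMod p,
        chiFun χ₀ (⟨f, a, b, c⟩ : Hs A p) * conj (chiFun χ₀ (⟨f, a, b, c⟩ : Hs A p)) =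
        if a = 0 then (if b = 0 then (p : ℂ) ^ 2 * ∏ i, (χ₀ (f i) * conj (χ₀ (f i))) else 0)
          else 0 := by
      intro a b c
      rw [chiFun_apply hcl]
      simp only
      by_cases ha : a = 0
      · by_cases hb : b = 0
        · rw [if_pos ⟨ha, hb⟩, if_pos ha, if_pos hb]
          rw [map_mul, map_mul, map_prod, Complex.conj_natCast, Finset.prod_mul_distrib]
          have h3 : ZMod.stdAddChar (N := p) c * conj (ZMod.stdAddChar (N := p) c) = 1 := by
            rw [← AddChar.map_neg_eq_conj, ← AddChar.map_add_eq_mul, add_neg_cancel,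
              AddChar.map_zero_eq_one]
          calc ((p : ℂ) * ZMod.stdAddChar (N := p) c * ∏ i, χ₀ (f i)) *
                ((p : ℂ) * conj (ZMod.stdAddChar (N := p) c) * ∏ i, conj (χ₀ (f i)))
              = (p : ℂ) ^ 2 * (ZMod.stdAddChar (N := p) c * conj (ZMod.stdAddChar (N := p) c)) *
                ((∏ i, χ₀ (f i)) * ∏ i, conj (χ₀ (f i))) := by ring
            _ = _ := by rw [h3, mul_one]
        · rw [if_neg (fun h => hb h.2), if_pos ha, if_neg hb, zero_mul]
      · rw [if_neg (fun h => ha h.1), if_neg ha, zero_mul]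
    simp only [h2]
    have e1 : ∀ a b : ZMod p, (∑ _c : ZMod p, if a = 0 then
        (if b = 0 then (p : ℂ) ^ 2 * ∏ i, (χ₀ (f i) * conj (χ₀ (f i))) else 0) else 0) =
        if a = 0 then (if b = 0 then (p : ℂ) ^ 3 * ∏ i, (χ₀ (f i) * conj (χ₀ (f i))) else 0)
          else 0 := by
      intro a b
      rw [Finset.sum_const, Finset.card_univ, ZMod.card, nsmul_eq_mul]
      split_ifs <;> ring
    have e2 : ∀ a : ZMod p, (∑ b : ZMod p, if a = 0 then
        (if b = 0 then (p : ℂ) ^ 3 * ∏ i, (χ₀ (f i) * conj (χ₀ (f i))) else 0) else 0) =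
        if a = 0 then (p : ℂ) ^ 3 * ∏ i, (χ₀ (f i) * conj (χ₀ (f i))) else 0 := by
      intro a
      by_cases ha : a = 0
      · simp only [if_pos ha]
        rw [Finset.sum_ite_eq' Finset.univ (0 : ZMod p)]
        simp
      · simp only [if_neg ha]
        simp
    simp only [e1, e2]
    rw [Finset.sum_ite_eq' Finset.univ (0 : ZMod p)]
    simp
  rw [Finset.sum_congr rfl (fun f _ => hinner f), ← Finset.mul_sum]
  have h4 := Cfsg.Agent.Lib.Helper3.WrPi.classInner_piChar (ι := ZMod p)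
    (fun _ => χ₀) (fun _ => χ₀)
  unfold classInner at h4 h1
  simp only [Cfsg.Agent.Lib.Helper3.WrPi.piChar_apply, map_prod] at h4
  rw [h1] at h4
  simp only [Finset.prod_const_one] at h4
  have h5 : (∑ f : ZMod p → A, ∏ i, (χ₀ (f i) * conj (χ₀ (f i)))) =
      (Nat.card (ZMod p → A) : ℂ) := by
    have hne : (Nat.card (ZMod p → A) : ℂ) ≠ 0 := Nat.cast_ne_zero.mpr Nat.card_pos.ne'
    have h6 : ∑ f : ZMod p → A, ∏ i, (χ₀ (f i) * conj (χ₀ (f i))) =
        ∑ f : ZMod p → A, (∏ i, χ₀ (f i)) * ∏ i, conj (χ₀ (f i)) :=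
      Finset.sum_congr rfl (fun f _ => Finset.prod_mul_distrib)
    rw [h6]
    field_simp at h4
    exact h4
  rw [h5, card_eq, Nat.card_pi, Finset.prod_const, Finset.card_univ, ZMod.card]
  push_cast
  field_simp

theorem isIrrCharacter_chiFun [Fact p.Prime] [Fintype A] [Fintype (Hs A p)] {χ₀ : A → ℂ}
    (h : IsIrrCharacter A χ₀) : IsIrrCharacter (Hs A p) (chiFun (p := p) χ₀) := by
  haveI : NeZero p := ⟨(Fact.out : p.Prime).ne_zero⟩
  have hc := Cfsg.Agent.Lib.CT.Ops.IsIrrCharacter.isCharacter h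
  exact Cfsg.Agent.Lib.CT.NormOne.irr_of_inner_self_eq_one (isCharacter_chiFun hc)
    (classInner_chiFun (Cfsg.Agent.Lib.CT.Wedderburn.char_isClassFunction hc)
      (Cfsg.Agent.Lib.CT.NormOne.inner_self_eq_one_of_irr h))

end Cfsg.Agent.Lib.Helper3.GagChar
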