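import Mathlib
import Cfsg.Agent.Lib.Helper3.SchurGal
import Cfsg.Agent.Lib.Helper3.CdPa

/-!
Schur-type bound for the order of a `p`-group with a faithful irreducible character of given
degree and field of values: character-theoretic part.

* `exists_index_p_vanish`: a nonlinear irreducible character of a `p`-group vanishes off a normal
  subgroup of index `p`.
* `card_le_pow`: if `χ` is faithful and `ψ` is a constituent of `χ` on the normal subgroup `M`
  with kernel `K`, then `|M| ≤ |M / K| ^ [P : M]`.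
* `schur_aux`: the bound, by induction.
-/

set_option autoImplicit false

namespace Cfsg.Agent.Lib.Helper3.SchurInd

open Cfsg Cfsg.Agent.Lib.Helper80.Integrality Cfsg.Agent.Lib.Helper80.Restrict
open Cfsg.Agent.Lib.CT.Wedderburn Cfsg.Agent.Lib.CT.Orth
open Cfsg.Agent.Lib.Helper3 Cfsg.Agent.Lib.Helper3.CdPa
open Cfsg.Agent.Lib.Helper80.GaloisRat Cfsg.Agent.Lib.Helper3.SchurGal
open scoped ComplexConjugate

universe u
variable {P : Type u} [Group P]

/-- A nonlinear irreducible character of a `p`-group is fixed by multiplication with some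
nontrivial linear character. -/
theorem exists_twist_fixed [Finite P] (p a : ℕ) (hp : p.Prime) (hP : Nat.card P = p ^ a)
    (χ : IrrCharacter P) (hχ : charDegree χ.1 ≠ 1) :
    ∃ lam : IrrCharacter P, lam.1 1 = 1 ∧ (∃ g, lam.1 g ≠ 1) ∧
      ∀ g, χ.1 g * lam.1 g = χ.1 g := by
  classical
  haveI := Fintype.ofFinite P
  haveI := finite_irrCharacter P
  haveI := Fintype.ofFinite (IrrCharacter P)
  have hχc := isCharacter_of_irr χ.2
  obtain ⟨Φ, hΦdef⟩ : ∃ Φ : P → ℂ, Φ = fun g => χ.1 g * χ.1 g⁻¹ := ⟨_, rfl⟩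
  have hΦ : IsCharacter P Φ := by
    rw [hΦdef]
    exact Cfsg.Agent.Lib.CT.Ops.isCharacter_mul hχc (Cfsg.Agent.Lib.CT.Ops.isCharacter_inv_arg hχc)
  obtain ⟨mm, hmm1, -, hmm3, -⟩ := exists_mult hΦ
  have hdegΦ : charDegree Φ = charDegree χ.1 * charDegree χ.1 := by
    have h1 := apply_one_eq_charDegree hΦ
    have h2 : Φ 1 = (charDegree χ.1 : ℂ) * (charDegree χ.1 : ℂ) := by
      rw [hΦdef]
      show χ.1 1 * χ.1 1⁻¹ = _
      rw [inv_one, apply_one_eq_charDegree hχc]
    rw [h2] at h1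
    exact_mod_cast h1.symm
  have hlin : ∀ ψ : IrrCharacter P, charDegree ψ.1 = 1 →
      (mm ψ = 1 ∧ ∀ g, χ.1 g * ψ.1 g = χ.1 g) ∨
      (mm ψ = 0 ∧ ¬ ∀ g, χ.1 g * ψ.1 g = χ.1 g) := by
    intro ψ hψ
    have hψc := isCharacter_of_irr ψ.2
    have hψ1 : ψ.1 1 = 1 := by
      rw [apply_one_eq_charDegree hψc, hψ]
      simp
    have hirr : IsIrrCharacter P (χ.1 * ψ.1) :=
      Cfsg.Agent.Lib.CT.LinChar.isIrrCharacter_mul_linear χ.2 hψc hψ1
    have h1 : classInner Φ ψ.1 = classInner χ.1 (χ.1 * ψ.1) := by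
      rw [hΦdef]
      unfold classInner
      congr 1
      refine Finset.sum_congr rfl fun g _ => ?_
      show χ.1 g * χ.1 g⁻¹ * conj (ψ.1 g) = χ.1 g * conj (χ.1 g * ψ.1 g)
      rw [char_apply_inv hχc, map_mul]
      ring
    have h2 := irr_orthonormal χ ⟨χ.1 * ψ.1, hirr⟩
    rw [hmm1 ψ] at h1
    by_cases heq : χ = ⟨χ.1 * ψ.1, hirr⟩
    · left
      rw [if_pos heq] at h2
      refine ⟨?_, fun g => ?_⟩
      · have h3 : (mm ψ : ℂ) = 1 := by
          rw [h1]
          exact h2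
        exact_mod_cast h3
      · exact (congrFun (congrArg Subtype.val heq) g).symm
    · right
      rw [if_neg heq] at h2
      refine ⟨?_, fun hall => heq (Subtype.ext (funext fun g => (hall g).symm))⟩
      have h3 : (mm ψ : ℂ) = 0 := by
        rw [h1]
        exact h2
      exact_mod_cast h3
  have hpdvd : ∀ ψ : IrrCharacter P, charDegree ψ.1 ≠ 1 → p ∣ charDegree ψ.1 := by
    intro ψ hψ
    have h1 := charDegree_dvd_card ψ
    rw [hP] at h1
    obtain ⟨i, -, hi⟩ := (Nat.dvd_prime_pow hp).1 h1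
    rcases Nat.eq_zero_or_pos i with h0 | h0
    · rw [h0, pow_zero] at hi
      exact absurd hi hψ
    · rw [hi]
      exact dvd_pow_self p h0.ne'
  by_contra hnone
  push Not at hnone
  have hsum : charDegree χ.1 * charDegree χ.1 =
      ∑ ψ : IrrCharacter P, mm ψ * charDegree ψ.1 := by rw [← hdegΦ, hmm3]
  rw [← Finset.sum_filter_add_sum_filter_not Finset.univ
    (fun ψ : IrrCharacter P => charDegree ψ.1 = 1)] at hsum
  have hnl : p ∣ ∑ ψ ∈ Finset.univ.filter (fun ψ : IrrCharacter P => ¬ charDegree ψ.1 = 1),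
      mm ψ * charDegree ψ.1 :=
    Finset.dvd_sum (fun ψ hψ => Dvd.dvd.mul_left (hpdvd ψ (Finset.mem_filter.1 hψ).2) _)
  have hpf : p ∣ charDegree χ.1 * charDegree χ.1 := Dvd.dvd.mul_left (hpdvd χ hχ) _
  have hL : p ∣ ∑ ψ ∈ Finset.univ.filter (fun ψ : IrrCharacter P => charDegree ψ.1 = 1),
      mm ψ * charDegree ψ.1 := by
    rw [hsum] at hpf
    exact (Nat.dvd_add_left hnl).1 hpf
  obtain ⟨T, hT⟩ : ∃ T : IrrCharacter P, T.1 = fun _ => 1 :=
    ⟨⟨_, Cfsg.Agent.Lib.CT.Ops.isIrrCharacter_one⟩, rfl⟩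
  have hT1 : charDegree T.1 = 1 := TDFrob.charDegree_of_apply_one (by rw [hT])
  have hterm : ∀ ψ ∈ Finset.univ.filter (fun ψ : IrrCharacter P => charDegree ψ.1 = 1),
      mm ψ * charDegree ψ.1 = if ψ = T then 1 else 0 := by
    intro ψ hψ
    have hd := (Finset.mem_filter.1 hψ).2
    rw [hd, mul_one]
    by_cases hψT : ψ = T
    · rw [if_pos hψT, hψT]
      rcases hlin T hT1 with h | h
      · exact h.1
      · exfalso
        apply h.2
        intro g
        rw [hT, mul_one]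
    · rw [if_neg hψT]
      rcases hlin ψ hd with h | h
      · exfalso
        have hψ1 : ψ.1 1 = 1 := by
          rw [apply_one_eq_charDegree (isCharacter_of_irr ψ.2), hd]
          simp
        have hex : ∃ g, ψ.1 g ≠ 1 := by
          by_contra hall
          push Not at hall
          exact hψT (Subtype.ext (by rw [hT]; exact funext hall))
        obtain ⟨g, hg⟩ := hnone ψ hψ1 hex
        exact hg (h.2 g)
      · exact h.1
  have hTmem : T ∈ Finset.univ.filter (fun ψ : IrrCharacter P => charDegree ψ.1 = 1) :=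
    Finset.mem_filter.2 ⟨Finset.mem_univ _, hT1⟩
  rw [Finset.sum_congr rfl hterm, Finset.sum_ite_eq', if_pos hTmem] at hL
  exact hp.one_lt.ne' (Nat.dvd_one.1 hL)

/-- A proper normal subgroup of a `p`-group lies in a normal subgroup of index `p`. -/
theorem exists_normal_index_p_ge [Finite P] (p a : ℕ) (hp : p.Prime) (hP : Nat.card P = p ^ a)
    (K₀ : Subgroup P) [K₀.Normal] (hK : K₀ ≠ ⊤) :
    ∃ M : Subgroup P, M.Normal ∧ M.index = p ∧ K₀ ≤ M := by
  haveI : Fact p.Prime := ⟨hp⟩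
  have hidx : K₀.index ∣ p ^ a := hP ▸ K₀.index_dvd_card
  obtain ⟨i, -, hi⟩ := (Nat.dvd_prime_pow hp).1 hidx
  have hi0 : i ≠ 0 := by
    rintro rfl
    rw [pow_zero] at hi
    exact hK (Subgroup.index_eq_one.1 hi)
  have hcardQ : Nat.card (P ⧸ K₀) = p ^ i := by rw [← Subgroup.index_eq_card, hi]
  obtain ⟨H, hH⟩ := Sylow.exists_subgroup_card_pow_prime p (G := P ⧸ K₀) (n := i - 1) (by
    rw [hcardQ]
    exact pow_dvd_pow p (Nat.sub_le i 1))
  have hHidx : H.index = p := by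
    have h1 := H.card_mul_index
    rw [hH, hcardQ] at h1
    have h2 : p ^ i = p ^ (i - 1) * p := by
      rw [← pow_succ]
      congr 1
      omega
    rw [h2] at h1
    exact Nat.eq_of_mul_eq_mul_left (pow_pos hp.pos _) h1
  haveI hHn : H.Normal := by
    apply Subgroup.normal_of_index_eq_minFac_card
    rw [hHidx, hcardQ, hp.pow_minFac hi0]
  refine ⟨H.comap (QuotientGroup.mk' K₀), inferInstance, ?_, ?_⟩
  · rw [Subgroup.index_comap_of_surjective _ (QuotientGroup.mk'_surjective K₀)]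
    exact hHidx
  · intro x hx
    rw [Subgroup.mem_comap]
    have h1 : (QuotientGroup.mk' K₀) x = 1 := (QuotientGroup.eq_one_iff x).2 hx
    rw [h1]
    exact H.one_mem

/-- A nonlinear irreducible character of a `p`-group vanishes off a normal subgroup of
index `p`. -/
theorem exists_index_p_vanish [Finite P] (p a : ℕ) (hp : p.Prime) (hP : Nat.card P = p ^ a)
    (χ : IrrCharacter P) (hχ : charDegree χ.1 ≠ 1) :
    ∃ M : Subgroup P, M.Normal ∧ M.index = p ∧ ∀ g, g ∉ M → χ.1 g = 0 := by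
  obtain ⟨lam, hlam1, ⟨g₀, hg₀⟩, hlam⟩ := exists_twist_fixed p a hp hP χ hχ
  obtain ⟨f, hf⟩ := Cfsg.Agent.Lib.CT.LinChar.exists_hom_of_isCharacter lam.1
    (isCharacter_of_irr lam.2) hlam1
  have hker : f.ker ≠ ⊤ := by
    intro h
    have h1 : g₀ ∈ f.ker := by
      rw [h]
      exact Subgroup.mem_top _
    rw [MonoidHom.mem_ker] at h1
    apply hg₀
    rw [hf, h1]
    rfl
  obtain ⟨M, hMn, hMidx, hle⟩ := exists_normal_index_p_ge p a hp hP f.ker hker
  refine ⟨M, hMn, hMidx, fun g hg => ?_⟩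
  have h1 : lam.1 g ≠ 1 := by
    intro h
    apply hg
    apply hle
    rw [MonoidHom.mem_ker]
    apply Units.ext
    rw [← hf, h]
    rfl
  have h2 := hlam g
  have h3 : χ.1 g * (lam.1 g - 1) = 0 := by linear_combination h2
  rcases mul_eq_zero.1 h3 with h4 | h4
  · exact h4
  · exact absurd (sub_eq_zero.1 h4) h1

/-- If `χ` is faithful and `ψ` is a constituent of `χ` on the normal subgroup `M`, with
kernel `K`, then `|M| ≤ |M / K| ^ [P : M]`. -/
theorem card_le_pow [Finite P] (M : Subgroup P) [hM : M.Normal] [Fintype M] (χ : IrrCharacter P)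
    (hfaith : ∀ g : P, χ.1 g = χ.1 1 → g = 1) (ψ : IrrCharacter M)
    (hcon : classInner (fun m : M => χ.1 m) ψ.1 ≠ 0) (K : Subgroup M) [hKn : K.Normal]
    (hK : ∀ m, m ∈ K ↔ ψ.1 m = ψ.1 1) : Nat.card M ≤ Nat.card (M ⧸ K) ^ M.index := by
  classical
  haveI := Fintype.ofFinite P
  have hres : IsCharacter M (fun m : M => χ.1 m) :=
    Cfsg.Agent.Lib.CT.Ops.isCharacter_restrict M (isCharacter_of_irr χ.2)
  have key : ∀ d : M, (∀ x : P, (⟨x * d * x⁻¹, hM.conj_mem d d.2 x⟩ : M) ∈ K) → d = 1 := by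
    intro d hd
    have h1 : χ.1 (d : P) = χ.1 1 := by
      have h2 := apply_eq_of_constituents hres d (fun ν hν => by
        obtain ⟨x, hx⟩ := Cfsg.Agent.Lib.CT.Clifford.exists_conj_of_constituent M hM χ.2 ψ.2 ν.2
          hcon hν
        rw [hx, Cfsg.Agent.Lib.CT.Clifford.conjFun_apply,
          Cfsg.Agent.Lib.CT.Clifford.conjFun_apply, (hK _).1 (hd x)]
        exact congrArg ψ.1 (Subtype.ext (by simp)))
      exact h2
    exact Subtype.ext (hfaith _ h1)
  obtain ⟨Φ, hΦ⟩ : ∃ Φ : M → (P ⧸ M → M ⧸ K), ∀ m q, Φ m q =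
      QuotientGroup.mk (⟨q.out * m * q.out⁻¹, hM.conj_mem m m.2 q.out⟩ : M) :=
    ⟨fun m q => QuotientGroup.mk (⟨q.out * m * q.out⁻¹, hM.conj_mem m m.2 q.out⟩ : M),
      fun m q => rfl⟩
  have hinj : Function.Injective Φ := by
    intro m m' hmm
    have hd : m⁻¹ * m' = 1 := by
      apply key
      intro x
      obtain ⟨q, hq⟩ : ∃ q : P ⧸ M, q = (x : P ⧸ M) := ⟨_, rfl⟩
      have hy : q.out⁻¹ * x ∈ M := by
        rw [← QuotientGroup.eq, QuotientGroup.out_eq', hq]
      have hz : x * q.out⁻¹ ∈ M := by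
        have h1 := hM.conj_mem _ hy x
        have h2 : x * (q.out⁻¹ * x) * x⁻¹ = x * q.out⁻¹ := by group
        rw [h2] at h1
        exact h1
      have h1 := congrFun hmm q
      rw [hΦ, hΦ] at h1
      have h2 := QuotientGroup.eq.1 h1
      have h3 := hKn.conj_mem _ h2 ⟨x * q.out⁻¹, hz⟩
      have h4 : (⟨x * (m⁻¹ * m' : M) * x⁻¹, hM.conj_mem _ (m⁻¹ * m').2 x⟩ : M) =
          ⟨x * q.out⁻¹, hz⟩ * ((⟨q.out * m * q.out⁻¹, hM.conj_mem m m.2 q.out⟩ : M)⁻¹ *
            ⟨q.out * m' * q.out⁻¹, hM.conj_mem m' m'.2 q.out⟩) * (⟨x * q.out⁻¹, hz⟩ : M)⁻¹ := by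
        apply Subtype.ext
        simp only [Subgroup.coe_mul, Subgroup.coe_inv]
        group
      rw [h4]
      exact h3
    calc m = m * (m⁻¹ * m') := by rw [hd, mul_one]
      _ = m' := by group
  have h1 := Nat.card_le_card_of_injective Φ hinj
  rw [Nat.card_fun, ← Subgroup.index_eq_card] at h1
  exact h1

/-- The power maps prime to the group order are isometries of class functions. -/
theorem inner_pow' {G : Type*} [Group G] [Fintype G] (k : ℕ) (hk : k.Coprime (Nat.card G))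
    (f h : G → ℂ) : classInner (fun g => f (g ^ k)) (fun g => h (g ^ k)) = classInner f h := by
  unfold classInner
  congr 1
  exact Fintype.sum_equiv (powCoprime hk.symm) _ _ (fun g => rfl)

theorem arith_same (p f₁ t a a₁ : ℕ) (hp : 2 ≤ p) (hf : 1 ≤ f₁) (ha : 1 ≤ a)
    (hIH : (p - 1) * a₁ ≤ (f₁ - 1) + (p - 1) * (t + 1) * f₁) (hcard : a - 1 ≤ a₁ * p) :
    (p - 1) * a ≤ (p * f₁ - 1) + (p - 1) * (t + 1) * (p * f₁) := by
  obtain ⟨c, rfl⟩ : ∃ c, p = c + 1 := ⟨p - 1, by omega⟩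
  obtain ⟨g, rfl⟩ : ∃ g, f₁ = g + 1 := ⟨f₁ - 1, by omega⟩
  obtain ⟨a', rfl⟩ : ∃ a', a = a' + 1 := ⟨a - 1, by omega⟩
  have e1 : c + 1 - 1 = c := rfl
  have e2 : g + 1 - 1 = g := rfl
  have e3 : a' + 1 - 1 = a' := rfl
  have e4 : (c + 1) * (g + 1) - 1 = c * g + c + g := by
    have h1 : (c + 1) * (g + 1) = c * g + c + g + 1 := by ring
    rw [h1]
    rfl
  rw [e1, e2] at hIH
  rw [e3] at hcard
  rw [e1, e4]
  calc c * (a' + 1) ≤ c * (a₁ * (c + 1) + 1) := Nat.mul_le_mul_left c (by omega)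
    _ = (c + 1) * (c * a₁) + c := by ring
    _ ≤ (c + 1) * (g + c * (t + 1) * (g + 1)) + c :=
        Nat.add_le_add_right (Nat.mul_le_mul_left _ hIH) _
    _ = (c * g + c + g) + c * (t + 1) * ((c + 1) * (g + 1)) := by ring

theorem arith_next (p f₁ t a : ℕ) (hp : 2 ≤ p) (hf : 1 ≤ f₁) (ha : 1 ≤ a)
    (hIH : (p - 1) * (a - 1) ≤ (f₁ - 1) + (p - 1) * (t + 1 + 1) * f₁) :
    (p - 1) * a ≤ (p * f₁ - 1) + (p - 1) * (t + 1) * (p * f₁) := by
  obtain ⟨c, rfl⟩ : ∃ c, p = c + 1 := ⟨p - 1, by omega⟩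
  obtain ⟨g, rfl⟩ : ∃ g, f₁ = g + 1 := ⟨f₁ - 1, by omega⟩
  obtain ⟨a', rfl⟩ : ∃ a', a = a' + 1 := ⟨a - 1, by omega⟩
  have e1 : c + 1 - 1 = c := rfl
  have e2 : g + 1 - 1 = g := rfl
  have e3 : a' + 1 - 1 = a' := rfl
  have e4 : (c + 1) * (g + 1) - 1 = c * g + c + g := by
    have h1 : (c + 1) * (g + 1) = c * g + c + g + 1 := by ring
    rw [h1]
    rfl
  rw [e1, e2, e3] at hIH
  rw [e1, e4]
  have hc : 1 ≤ c := by omega
  have hX : (t + 2) * (g + 1) ≤ g + (t + 1) * (c + 1) * (g + 1) := by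
    nlinarith [Nat.zero_le (t * c * g), Nat.zero_le (t * c), Nat.zero_le (c * g)]
  calc c * (a' + 1) = c * a' + c := by ring
    _ ≤ (g + c * (t + 1 + 1) * (g + 1)) + c := Nat.add_le_add_right hIH _
    _ = g + c + c * ((t + 2) * (g + 1)) := by ring
    _ ≤ g + c + c * (g + (t + 1) * (c + 1) * (g + 1)) :=
        Nat.add_le_add_left (Nat.mul_le_mul_left _ hX) _
    _ = (c * g + c + g) + c * (t + 1) * ((c + 1) * (g + 1)) := by ring

/-- The degree of a constituent of the restriction of `χ` to a normal subgroup of prime index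
off which `χ` vanishes. -/
theorem restrict_degree [Finite P] (p : ℕ) (hp : p.Prime) (M : Subgroup P) [hM : M.Normal]
    [Fintype M] (hidx : M.index = p) (χ : IrrCharacter P) (hvan : ∀ g, g ∉ M → χ.1 g = 0)
    (ψ : IrrCharacter M) (hcon : classInner (fun m : M => χ.1 m) ψ.1 ≠ 0) :
    charDegree χ.1 = p * charDegree ψ.1 := by
  classical
  haveI := Fintype.ofFinite P
  have hres : IsCharacter M (fun m : M => χ.1 m) :=
    Cfsg.Agent.Lib.CT.Ops.isCharacter_restrict M (isCharacter_of_irr χ.2)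
  obtain ⟨h1, h2⟩ := TDBasic.deg_of_constituent M ψ χ hcon
  rw [hidx] at h2
  rcases (Nat.dvd_prime hp).1 h2 with h | h
  · exfalso
    have h3 : charDegree χ.1 = charDegree ψ.1 := by
      have h4 := Nat.div_mul_cancel h1
      rw [h, one_mul] at h4
      exact h4.symm
    have h4 : charDegree (fun m : M => χ.1 m) = charDegree χ.1 := rfl
    have h5 := eq_of_constituent_of_degree_le hres ψ hcon (by rw [h4, h3])
    have hMtop : M ≠ ⊤ := by
      intro h
      rw [h, Subgroup.index_top] at hidx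
      exact hp.one_lt.ne hidx
    exact not_irr_restrict M hMtop χ hvan (h5 ▸ ψ.2)
  · have h4 := Nat.div_mul_cancel h1
    rw [h] at h4
    exact h4.symm

/-- The restriction of `χ` to `M` has at most `p` irreducible constituents. -/
theorem card_constituents_le [Finite P] (p : ℕ) (hp : p.Prime) (M : Subgroup P) [hM : M.Normal]
    [Fintype M] (hidx : M.index = p) (χ : IrrCharacter P) (hvan : ∀ g, g ∉ M → χ.1 g = 0)
    (s : Finset (IrrCharacter M))
    (hs : ∀ ν ∈ s, classInner (fun m : M => χ.1 m) ν.1 ≠ 0) : s.card ≤ p := by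
  classical
  haveI := Fintype.ofFinite P
  haveI := finite_irrCharacter M
  haveI := Fintype.ofFinite (IrrCharacter M)
  have hres : IsCharacter M (fun m : M => χ.1 m) :=
    Cfsg.Agent.Lib.CT.Ops.isCharacter_restrict M (isCharacter_of_irr χ.2)
  obtain ⟨mm, hmm1, -, hmm3, -⟩ := exists_mult hres
  have hf : charDegree (fun m : M => χ.1 m) = charDegree χ.1 := rfl
  have hfpos := charDegree_pos χ
  have h1 : ∑ ν ∈ s, charDegree χ.1 ≤ p * charDegree χ.1 := by
    calc ∑ ν ∈ s, charDegree χ.1 = ∑ ν ∈ s, p * charDegree ν.1 :=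
          Finset.sum_congr rfl fun ν hν => restrict_degree p hp M hidx χ hvan ν (hs ν hν)
      _ ≤ ∑ ν ∈ s, p * (mm ν * charDegree ν.1) := by
          refine Finset.sum_le_sum fun ν hν => Nat.mul_le_mul_left _ ?_
          have h0 : mm ν ≠ 0 := by
            intro h
            apply hs ν hν
            rw [hmm1 ν, h]
            simp
          exact Nat.le_mul_of_pos_left _ (Nat.pos_of_ne_zero h0)
      _ = p * ∑ ν ∈ s, mm ν * charDegree ν.1 := by rw [Finset.mul_sum]
      _ ≤ p * ∑ ν : IrrCharacter M, mm ν * charDegree ν.1 :=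
          Nat.mul_le_mul_left _ (Finset.sum_le_sum_of_subset (Finset.subset_univ s))
      _ = p * charDegree χ.1 := by rw [← hmm3, hf]
  rw [Finset.sum_const, smul_eq_mul] at h1
  exact Nat.le_of_mul_le_mul_right h1 hfpos

/-- The Galois stabiliser of a constituent of `χ` on `M` is contained in that of `χ`. -/
theorem stab_le [Finite P] (n : ℕ) [NeZero n] (hn : ∀ g : P, orderOf g ∣ n) (M : Subgroup P)
    [hM : M.Normal] [Fintype M] (χ : IrrCharacter P) (hvan : ∀ g, g ∉ M → χ.1 g = 0)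
    (ψ : IrrCharacter M) (hcon : classInner (fun m : M => χ.1 m) ψ.1 ≠ 0)
    (hnM : ∀ m : M, orderOf m ∣ n) :
    stab n ψ.1 (fun m => char_mem (isCharacter_of_irr ψ.2) n m (hnM m)) ≤
      stab n χ.1 (fun g => char_mem (isCharacter_of_irr χ.2) n g (hn g)) := by
  classical
  haveI := Fintype.ofFinite P
  haveI := finite_irrCharacter M
  haveI := Fintype.ofFinite (IrrCharacter M)
  intro σ hσ
  obtain ⟨j, hjcop, hj⟩ := exists_pow n σ
  rw [mem_stab_iff_pow (isCharacter_of_irr ψ.2) n hnM σ j hj] at hσ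
  rw [mem_stab_iff_pow (isCharacter_of_irr χ.2) n hn σ j hj]
  intro g
  by_cases hg : g ∈ M
  · have hres : IsCharacter M (fun m : M => χ.1 m) :=
      Cfsg.Agent.Lib.CT.Ops.isCharacter_restrict M (isCharacter_of_irr χ.2)
    obtain ⟨mm, hmm1, hmm2, -, -⟩ := exists_mult hres
    have h1 : χ.1 g = ∑ ν : IrrCharacter M, (mm ν : ℂ) * ν.1 ⟨g, hg⟩ := hmm2 ⟨g, hg⟩
    have h2 : χ.1 (g ^ j) = ∑ ν : IrrCharacter M, (mm ν : ℂ) * ν.1 (⟨g, hg⟩ ^ j) :=
      hmm2 (⟨g, hg⟩ ^ j)
    rw [h1, h2]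
    refine Finset.sum_congr rfl fun ν _ => ?_
    by_cases h0 : mm ν = 0
    · rw [h0]
      simp
    · obtain ⟨x, hx⟩ := Cfsg.Agent.Lib.CT.Clifford.exists_conj_of_constituent M hM χ.2 ψ.2 ν.2
        hcon (by rw [hmm1 ν]; exact_mod_cast h0)
      rw [hx, Cfsg.Agent.Lib.CT.Clifford.conjFun_apply, Cfsg.Agent.Lib.CT.Clifford.conjFun_apply]
      have h3 := hσ ⟨x * g * x⁻¹, hM.conj_mem g hg x⟩
      rw [← h3]
      congr 1
      exact congrArg ψ.1 (Subtype.ext (by simp [conj_pow]))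
  · have hgj : g ^ j ∉ M := by
      intro h
      apply hg
      have hcop : (orderOf g).Coprime j := (Nat.Coprime.coprime_dvd_left (hn g) hjcop.symm)
      obtain ⟨k, hk⟩ := exists_pow_eq_self_of_coprime hcop.symm
      rw [← hk]
      exact M.pow_mem h k
    rw [hvan g hg, hvan _ hgj]

/-- Counting the Galois conjugates of a constituent of `χ` on `M`. -/
theorem card_stab_le [Finite P] (n : ℕ) [NeZero n] (hcard : Nat.card P ∣ n) (M : Subgroup P)
    [hM : M.Normal] [Fintype M] (χ : IrrCharacter P) (ψ : IrrCharacter M)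
    (hcon : classInner (fun m : M => χ.1 m) ψ.1 ≠ 0)
    (hn : ∀ g : P, orderOf g ∣ n) (hnM : ∀ m : M, orderOf m ∣ n) (c : ℕ)
    (hc : ∀ s : Finset (IrrCharacter M),
      (∀ ν ∈ s, classInner (fun m : M => χ.1 m) ν.1 ≠ 0) → s.card ≤ c) :
    Nat.card (stab n χ.1 (fun g => char_mem (isCharacter_of_irr χ.2) n g (hn g))) ≤
        Nat.card (stab n ψ.1 (fun m => char_mem (isCharacter_of_irr ψ.2) n m (hnM m))) * c ∧
      (Nat.card (stab n χ.1 (fun g => char_mem (isCharacter_of_irr χ.2) n g (hn g))) =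
        Nat.card (stab n ψ.1 (fun m => char_mem (isCharacter_of_irr ψ.2) n m (hnM m))) * c →
        ∀ ν : IrrCharacter M, classInner (fun m : M => χ.1 m) ν.1 ≠ 0 →
          ∃ j : ℕ, ν.1 = fun m => ψ.1 (m ^ j)) := by
  classical
  haveI := Fintype.ofFinite P
  haveI : Finite (cyc n ≃ₐ[ℚ] cyc n) := by
    apply Nat.finite_of_card_ne_zero
    rw [card_gal]
    exact (Nat.totient_pos.2 (NeZero.pos n)).ne'
  haveI := Fintype.ofFinite (cyc n ≃ₐ[ℚ] cyc n)
  have hχc := isCharacter_of_irr χ.2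
  have hψc := isCharacter_of_irr ψ.2
  obtain ⟨Sχ, hSχ⟩ : ∃ S, S = stab n χ.1 (fun g => char_mem hχc n g (hn g)) := ⟨_, rfl⟩
  obtain ⟨Sψ, hSψ⟩ : ∃ S, S = stab n ψ.1 (fun m => char_mem hψc n m (hnM m)) := ⟨_, rfl⟩
  rw [← hSχ, ← hSψ]
  choose J hJcop hJ using (fun σ : cyc n ≃ₐ[ℚ] cyc n => exists_pow n σ)
  have hcopM : ∀ σ, (J σ).Coprime (Nat.card M) := fun σ =>
    Nat.Coprime.coprime_dvd_right ((Subgroup.card_subgroup_dvd_card M).trans hcard) (hJcop σ)
  obtain ⟨Φ, hΦ⟩ : ∃ Φ : (cyc n ≃ₐ[ℚ] cyc n) → IrrCharacter M,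
      ∀ σ, (Φ σ).1 = fun m => ψ.1 (m ^ J σ) :=
    ⟨fun σ => ⟨fun m => ψ.1 (m ^ J σ),
      Cfsg.Agent.Lib.Helper76.GaloisConj.isIrrCharacter_pow ψ.2 (J σ) (hcopM σ)⟩, fun σ => rfl⟩
  have hmemχ : ∀ σ, σ ∈ Sχ ↔ ∀ g, χ.1 (g ^ J σ) = χ.1 g := fun σ => by
    rw [hSχ]
    exact mem_stab_iff_pow hχc n hn σ (J σ) (hJ σ)
  have hΦcon : ∀ σ, σ ∈ Sχ → classInner (fun m : M => χ.1 m) (Φ σ).1 ≠ 0 := by
    intro σ hσ
    have h1 := (hmemχ σ).1 hσ
    have h2 : (fun m : M => χ.1 m) = fun m : M => (fun m : M => χ.1 m) (m ^ J σ) := by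
      funext m
      exact (h1 m).symm
    rw [hΦ σ, h2, inner_pow' (J σ) (hcopM σ) (fun m : M => χ.1 m) ψ.1]
    exact hcon
  have hfiber : ∀ σ τ, Φ σ = Φ τ → τ⁻¹ * σ ∈ Sψ := by
    intro σ τ h
    have h1 : ∀ m : M, ψ.1 (m ^ J σ) = ψ.1 (m ^ J τ) := fun m => by
      have h2 := congrFun (congrArg Subtype.val h) m
      rw [hΦ σ, hΦ τ] at h2
      exact h2
    rw [hSψ, mem_stab]
    intro m
    have h2 : σ ⟨ψ.1 m, char_mem hψc n m (hnM m)⟩ = τ ⟨ψ.1 m, char_mem hψc n m (hnM m)⟩ := by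
      apply Subtype.ext
      rw [galois_char hψc n hnM σ (J σ) (hJ σ) m, galois_char hψc n hnM τ (J τ) (hJ τ) m]
      exact h1 m
    show τ.symm (σ ⟨ψ.1 m, char_mem hψc n m (hnM m)⟩) = _
    rw [h2]
    exact τ.symm_apply_apply _
  obtain ⟨S, hS⟩ : ∃ S : Finset (cyc n ≃ₐ[ℚ] cyc n), S = Finset.univ.filter (· ∈ Sχ) := ⟨_, rfl⟩
  obtain ⟨T, hT⟩ : ∃ T : Finset (cyc n ≃ₐ[ℚ] cyc n), T = Finset.univ.filter (· ∈ Sψ) := ⟨_, rfl⟩
  have hScard : Nat.card Sχ = S.card := by
    rw [hS]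
    exact Nat.subtype_card _ (fun x => by simp)
  have hTcard : Nat.card Sψ = T.card := by
    rw [hT]
    exact Nat.subtype_card _ (fun x => by simp)
  have hmemS : ∀ σ, σ ∈ S ↔ σ ∈ Sχ := fun σ => by rw [hS]; simp
  have hmemT : ∀ σ, σ ∈ T ↔ σ ∈ Sψ := fun σ => by rw [hT]; simp
  have hfib : ∀ ν ∈ S.image Φ, (S.filter fun σ => Φ σ = ν).card ≤ T.card := by
    intro ν hν
    obtain ⟨τ, -, rfl⟩ := Finset.mem_image.1 hν
    apply Finset.card_le_card_of_injOn (fun σ => τ⁻¹ * σ)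
    · intro σ hσ
      rw [Finset.mem_coe, Finset.mem_filter] at hσ
      rw [Finset.mem_coe, hmemT]
      exact hfiber σ τ hσ.2
    · intro σ _ σ' _ h
      exact mul_left_cancel h
  have hcount := Finset.card_le_mul_card_image S T.card hfib
  have himg : ∀ ν ∈ S.image Φ, classInner (fun m : M => χ.1 m) ν.1 ≠ 0 := by
    intro ν hν
    obtain ⟨σ, hσ, rfl⟩ := Finset.mem_image.1 hν
    exact hΦcon σ ((hmemS σ).1 hσ)
  have himgc := hc _ himg
  rw [hScard, hTcard]
  refine ⟨hcount.trans (Nat.mul_le_mul_left _ himgc), fun heq ν hν => ?_⟩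
  have hTpos : 0 < T.card := by
    rw [← hTcard]
    exact Nat.card_pos
  have h1 : T.card * c ≤ T.card * (S.image Φ).card := heq ▸ hcount
  have h2 : c ≤ (S.image Φ).card := Nat.le_of_mul_le_mul_left h1 hTpos
  by_cases hmem : ν ∈ S.image Φ
  · obtain ⟨σ, -, rfl⟩ := Finset.mem_image.1 hmem
    exact ⟨J σ, hΦ σ⟩
  · exfalso
    have h3 := hc (insert ν (S.image Φ)) (by
      intro ν' hν'
      rcases Finset.mem_insert.1 hν' with h | h
      · rw [h]
        exact hν
      · exact himg ν' h)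
    rw [Finset.card_insert_of_notMem hmem] at h3
    omega

/-- The base case: a faithful linear character of a `p`-group of order `p ^ a`. -/
theorem base_case [Finite P] (p a : ℕ) (hp : p.Prime) (ha : 0 < a) (hP : Nat.card P = p ^ a)
    (χ : IrrCharacter P) (hfaith : ∀ g : P, χ.1 g = χ.1 1 → g = 1) (hdeg : charDegree χ.1 = 1)
    (t : ℕ) (hfield : Module.finrank ℚ (IntermediateField.adjoin ℚ (Set.range χ.1)) =
      (p - 1) * p ^ t) : t + 1 = a := by
  classical
  haveI := Fintype.ofFinite P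
  haveI : NeZero (p ^ a) := ⟨(pow_pos hp.pos a).ne'⟩
  have hχc := isCharacter_of_irr χ.2
  have hχ1 : χ.1 1 = 1 := by
    rw [apply_one_eq_charDegree hχc, hdeg]
    simp
  have hinj : Function.Injective χ.1 := by
    intro g h hgh
    have h1 : χ.1 (g * h⁻¹) = χ.1 1 := by
      rw [Cfsg.Agent.Lib.CT.LinChar.linear_mul hχc hχ1, Cfsg.Agent.Lib.CT.LinChar.linear_inv hχc hχ1,
        hgh, hχ1, mul_inv_cancel₀ (Cfsg.Agent.Lib.CT.LinChar.linear_ne_zero hχc hχ1 h)]
    exact mul_inv_eq_one.1 (hfaith _ h1)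
  have hroot : ∀ g, χ.1 g ^ (p ^ a) = 1 := by
    intro g
    rw [← hP]
    exact Cfsg.Agent.Lib.CT.LinChar.linear_pow_card hχc hχ1 g
  have hζ := Complex.isPrimitiveRoot_exp (p ^ a) (NeZero.ne _)
  have himg : Finset.univ.image χ.1 = Polynomial.nthRootsFinset (p ^ a) (1 : ℂ) := by
    apply Finset.eq_of_subset_of_card_le
    · intro z hz
      obtain ⟨g, -, rfl⟩ := Finset.mem_image.1 hz
      rw [Polynomial.mem_nthRootsFinset (NeZero.pos _)]
      exact hroot g
    · rw [hζ.card_nthRootsFinset, Finset.card_image_of_injective _ hinj, Finset.card_univ,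
        ← Nat.card_eq_fintype_card, hP]
  have hζmem : Complex.exp (2 * Real.pi * Complex.I / ((p ^ a : ℕ) : ℂ)) ∈ Set.range χ.1 := by
    have h1 : Complex.exp (2 * Real.pi * Complex.I / ((p ^ a : ℕ) : ℂ)) ∈
        Polynomial.nthRootsFinset (p ^ a) (1 : ℂ) := by
      rw [Polynomial.mem_nthRootsFinset (NeZero.pos _)]
      exact hζ.pow_eq_one
    rw [← himg] at h1
    obtain ⟨g, -, hg⟩ := Finset.mem_image.1 h1
    exact ⟨g, hg⟩
  have hEq : IntermediateField.adjoin ℚ (Set.range χ.1) = cyc (p ^ a) := by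
    apply le_antisymm
    · rw [IntermediateField.adjoin_le_iff]
      rintro _ ⟨g, rfl⟩
      exact char_mem hχc (p ^ a) g (hP ▸ orderOf_dvd_natCard g)
    · exact IntermediateField.adjoin.mono ℚ _ _ (Set.singleton_subset_iff.2 hζmem)
  rw [hEq, finrank_cyc, Nat.totient_prime_pow hp ha, mul_comm] at hfield
  have h1 : p ^ (a - 1) = p ^ t :=
    Nat.eq_of_mul_eq_mul_left (by have := hp.two_le; omega) hfield
  have h2 := Nat.pow_right_injective hp.two_le h1
  omega

/-- The bound on the order of a `p`-group with a faithful irreducible character of given degree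
and field of values. -/
theorem schur_aux (p : ℕ) (hp : p.Prime) : ∀ (a : ℕ) (P : Type u) [Group P] [Finite P], 0 < a →
    Nat.card P = p ^ a → ∀ χ : IrrCharacter P, (∀ g : P, χ.1 g = χ.1 1 → g = 1) →
    ∀ t : ℕ, Module.finrank ℚ (IntermediateField.adjoin ℚ (Set.range χ.1)) = (p - 1) * p ^ t →
    (p - 1) * a ≤ (charDegree χ.1 - 1) + (p - 1) * (t + 1) * charDegree χ.1 := by
  intro a
  induction a using Nat.strong_induction_on with
  | _ a IH =>
  intro P _ _ ha hP χ hfaith t hfield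
  classical
  haveI := Fintype.ofFinite P
  have hχc := isCharacter_of_irr χ.2
  have hp2 := hp.two_le
  by_cases hdeg1 : charDegree χ.1 = 1
  · have h1 := base_case p a hp ha hP χ hfaith hdeg1 t hfield
    rw [hdeg1, h1]
    simp
  · obtain ⟨M, hMn, hMidx, hvan⟩ := exists_index_p_vanish p a hp hP χ hdeg1
    haveI := hMn
    haveI := Fintype.ofFinite M
    haveI := finite_irrCharacter M
    haveI := Fintype.ofFinite (IrrCharacter M)
    have hres : IsCharacter M (fun m : M => χ.1 m) :=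
      Cfsg.Agent.Lib.CT.Ops.isCharacter_restrict M hχc
    obtain ⟨mm, hmm1, hmm2, hmm3, -⟩ := exists_mult hres
    have hex : ∃ ψ : IrrCharacter M, mm ψ ≠ 0 := by
      by_contra hnone
      push Not at hnone
      have h1 : charDegree (fun m : M => χ.1 m) = 0 := by
        rw [hmm3]
        exact Finset.sum_eq_zero fun ψ _ => by rw [hnone ψ, zero_mul]
      have h2 := charDegree_pos χ
      have h3 : charDegree (fun m : M => χ.1 m) = charDegree χ.1 := rfl
      omega
    obtain ⟨ψ, hψ0⟩ := hex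
    have hψc := isCharacter_of_irr ψ.2
    have hcon : classInner (fun m : M => χ.1 m) ψ.1 ≠ 0 := by
      rw [hmm1 ψ]
      exact_mod_cast hψ0
    have hdeg := restrict_degree p hp M hMidx χ hvan ψ hcon
    have hf₁pos := charDegree_pos ψ
    have hMcard : Nat.card M * p = p ^ a := by
      have h1 := M.card_mul_index
      rw [hMidx, hP] at h1
      exact h1
    have hMcard' : Nat.card M = p ^ (a - 1) := by
      have h2 : p ^ a = p ^ (a - 1) * p := by
        rw [← pow_succ]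
        congr 1
        omega
      rw [h2] at hMcard
      exact Nat.eq_of_mul_eq_mul_right hp.pos hMcard
    obtain ⟨K, hKn, hK⟩ := Cfsg.Agent.Lib.CT.Kernel.exists_normal_ker hψc
    haveI := hKn
    obtain ⟨ψb, hψb_irr, hψb⟩ := Cfsg.Agent.Lib.CT.Kernel.exists_quotient_irr K ψ.2
      (fun m hm => (hK m).1 hm)
    have hψb_faith : ∀ q : M ⧸ K, ψb q = ψb 1 → q = 1 := by
      intro q hq
      obtain ⟨m, rfl⟩ := QuotientGroup.mk_surjective q
      have h1 : ψb ((1 : M) : M ⧸ K) = ψ.1 1 := hψb 1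
      rw [hψb m, show (1 : M ⧸ K) = ((1 : M) : M ⧸ K) from rfl, h1] at hq
      exact (QuotientGroup.eq_one_iff m).2 ((hK m).2 hq)
    have hrange : Set.range ψb = Set.range ψ.1 := by
      ext z
      constructor
      · rintro ⟨q, rfl⟩
        obtain ⟨m, rfl⟩ := QuotientGroup.mk_surjective q
        exact ⟨m, (hψb m).symm⟩
      · rintro ⟨m, rfl⟩
        exact ⟨(m : M ⧸ K), hψb m⟩
    have hdegb : charDegree ψb = charDegree ψ.1 := by
      have h1 : ψb ((1 : M) : M ⧸ K) = ψ.1 1 := hψb 1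
      unfold charDegree
      rw [← h1]
      rfl
    have hQdvd : Nat.card (M ⧸ K) ∣ p ^ (a - 1) := by
      rw [← hMcard', ← Subgroup.index_eq_card]
      exact K.index_dvd_card
    obtain ⟨a₁, ha₁le, ha₁⟩ := (Nat.dvd_prime_pow hp).1 hQdvd
    have hcp := card_le_pow M χ hfaith ψ hcon K hK
    rw [hMcard', ha₁, hMidx, ← pow_mul] at hcp
    have hcard' : a - 1 ≤ a₁ * p := (Nat.pow_le_pow_iff_right hp.one_lt).1 hcp
    have ha2 : 2 ≤ a := by
      have h1 := Cfsg.Agent.Lib.Helper80.Core.charDegree_sq_le_index_center χ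
      have h2 : (Subgroup.center P).index ≤ p ^ a := by
        rw [← hP]
        exact Nat.le_of_dvd Nat.card_pos (Subgroup.index_dvd_card _)
      by_contra hlt
      have ha1' : a = 1 := by omega
      rw [ha1', pow_one] at h2
      rw [hdeg] at h1
      have h3 : p * p ≤ (p * charDegree ψ.1) ^ 2 := by
        rw [sq]
        exact Nat.mul_le_mul (Nat.le_mul_of_pos_right _ hf₁pos) (Nat.le_mul_of_pos_right _ hf₁pos)
      have h4 : 2 * p ≤ p * p := Nat.mul_le_mul_right p hp2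
      omega
    have ha₁pos : 0 < a₁ := by
      by_contra h
      have h0 : a₁ = 0 := by omega
      rw [h0, zero_mul] at hcard'
      omega
    haveI : NeZero (p ^ a) := ⟨(pow_pos hp.pos a).ne'⟩
    have hordP : ∀ g : P, orderOf g ∣ p ^ a := fun g => hP ▸ orderOf_dvd_natCard g
    have hordM : ∀ m : M, orderOf m ∣ p ^ a := fun m =>
      (orderOf_dvd_natCard m).trans (by rw [hMcard']; exact pow_dvd_pow p (Nat.sub_le a 1))
    have htot : (p ^ a).totient = p ^ (a - 1) * (p - 1) := Nat.totient_prime_pow hp ha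
    have hχstab := finrank_mul_card_stab (p ^ a) χ.1 (fun g => char_mem hχc (p ^ a) g (hordP g))
    have hψstab := finrank_mul_card_stab (p ^ a) ψ.1 (fun m => char_mem hψc (p ^ a) m (hordM m))
    rw [hfield, htot] at hχstab
    rw [htot] at hψstab
    have hle := stab_le (p ^ a) hordP M χ hvan ψ hcon hordM
    obtain ⟨hcount, hcount_eq⟩ := card_stab_le (p ^ a) (by rw [hP]) M χ ψ hcon hordP hordM p
      (card_constituents_le p hp M hMidx χ hvan)
    have hdvd := Subgroup.card_dvd_of_le hle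
    obtain ⟨A, hA⟩ : ∃ A, A = Nat.card (stab (p ^ a) χ.1
      (fun g => char_mem hχc (p ^ a) g (hordP g))) := ⟨_, rfl⟩
    obtain ⟨B, hB⟩ : ∃ B, B = Nat.card (stab (p ^ a) ψ.1
      (fun m => char_mem hψc (p ^ a) m (hordM m))) := ⟨_, rfl⟩
    obtain ⟨F, hF⟩ : ∃ F, F = Module.finrank ℚ (IntermediateField.adjoin ℚ (Set.range ψ.1)) :=
      ⟨_, rfl⟩
    rw [← hA] at hχstab hcount hcount_eq hdvd
    rw [← hB] at hψstab hcount hcount_eq hdvd
    rw [← hF] at hψstab
    have hpm1 : 0 < p - 1 := by omega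
    have hA1 : p ^ t * A = p ^ (a - 1) := by
      have h1 : (p - 1) * (p ^ t * A) = (p - 1) * p ^ (a - 1) := by
        rw [← mul_assoc, hχstab, mul_comm]
      exact Nat.eq_of_mul_eq_mul_left hpm1 h1
    obtain ⟨u, -, hu⟩ := (Nat.dvd_prime_pow hp).1 (Dvd.intro_left _ hA1)
    obtain ⟨b, -, hb⟩ := (Nat.dvd_prime_pow hp).1 (hu ▸ hdvd)
    have htu : t + u = a - 1 := by
      rw [hu, ← pow_add] at hA1
      exact Nat.pow_right_injective hp2 hA1
    have hbu : b ≤ u := by
      rw [hu, hb] at hdvd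
      exact (Nat.pow_dvd_pow_iff_le_right hp.one_lt).1 hdvd
    have hub : u ≤ b + 1 := by
      rw [hu, hb, ← pow_succ] at hcount
      exact (Nat.pow_le_pow_iff_right hp.one_lt).1 hcount
    have hFval : F = (p - 1) * p ^ (a - 1 - b) := by
      have h1 : p ^ (a - 1) = p ^ (a - 1 - b) * p ^ b := by
        rw [← pow_add]
        congr 1
        omega
      rw [hb, h1] at hψstab
      have h2 : F * p ^ b = (p - 1) * p ^ (a - 1 - b) * p ^ b := by
        rw [hψstab]
        ring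
      exact Nat.eq_of_mul_eq_mul_right (pow_pos hp.pos b) h2
    have hIH := IH a₁ (by omega) (M ⧸ K) ha₁pos ha₁ ⟨ψb, hψb_irr⟩ hψb_faith (a - 1 - b)
      (by
        show Module.finrank ℚ (IntermediateField.adjoin ℚ (Set.range ψb)) = _
        rw [hrange, ← hF, hFval])
    have hIH' : (p - 1) * a₁ ≤ (charDegree ψ.1 - 1) +
        (p - 1) * (a - 1 - b + 1) * charDegree ψ.1 := by
      have h1 : charDegree (⟨ψb, hψb_irr⟩ : IrrCharacter (M ⧸ K)).1 = charDegree ψ.1 := hdegb
      rw [h1] at hIH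
      exact hIH
    rw [hdeg]
    rcases Nat.lt_or_ge b u with hlt | hge
    · -- the field grows: all constituents are Galois conjugate, so `K = ⊥`
      have hub' : u = b + 1 := by omega
      have hAB : A = B * p := by rw [hu, hb, hub', pow_succ]
      have hall := hcount_eq hAB
      have hKbot : K = ⊥ := by
        rw [eq_bot_iff]
        intro k hk
        rw [Subgroup.mem_bot]
        have h1 : χ.1 (k : P) = χ.1 1 := by
          have h2 := apply_eq_of_constituents hres k (fun ν hν => by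
            obtain ⟨j, hj⟩ := hall ν hν
            rw [hj]
            show ψ.1 (k ^ j) = ψ.1 (1 ^ j)
            rw [one_pow]
            exact (hK _).1 (K.pow_mem hk j))
          exact h2
        exact Subtype.ext (hfaith _ h1)
      have ha₁' : a₁ = a - 1 := by
        have h1 : Nat.card (M ⧸ K) = Nat.card M := by
          rw [← Subgroup.index_eq_card, hKbot, Subgroup.index_bot]
        rw [ha₁, hMcard'] at h1
        exact Nat.pow_right_injective hp2 h1
      have h2 : a - 1 - b = t + 1 := by omega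
      rw [h2, ha₁'] at hIH'
      exact arith_next p (charDegree ψ.1) t a hp2 hf₁pos (by omega) hIH'
    · have h2 : a - 1 - b = t := by omega
      rw [h2] at hIH'
      exact arith_same p (charDegree ψ.1) t a a₁ hp2 hf₁pos (by omega) hIH' hcard'

end Cfsg.Agent.Lib.Helper3.SchurInd
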